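import Cfsg.Agent.Grp.FpfAut
import Cfsg.Agent.Grp.Tate
import Cfsg.Agent.CT.Center

/-! Groups whose derived subgroup is the union of a normal subgroup and one conjugacy class. -/

set_option autoImplicit false

namespace Cfsg

open scoped Pointwise commutatorElement

universe u v

variable {G : Type u} [Group G] [Finite G]

omit [Finite G] in
theorem commutator_quot (W : Subgroup G) [W.Normal] :
    commutator (G ⧸ W) = (commutator G).map (QuotientGroup.mk' W) := by
  rw [map_commutator_eq, MonoidHom.range_eq_top.2 (QuotientGroup.mk'_surjective W)]; rfl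

omit [Finite G] in
theorem mk_mem_map_mk_iff {W K : Subgroup G} [W.Normal] (h : W ≤ K) {x : G} :
    (QuotientGroup.mk x : G ⧸ W) ∈ K.map (QuotientGroup.mk' W) ↔ x ∈ K := by
  rw [← QuotientGroup.mk'_apply, ← Subgroup.mem_comap, comap_map_mk, sup_eq_left.2 h]

theorem minNormal_semiregular {M : Subgroup G} (hM : IsMinNormal M)
    (h : commutator G ≤ Subgroup.centralizer (M : Set G)) :
    (∀ c, c ∉ Subgroup.centralizer (M : Set G) → ∀ m ∈ M, c * m = m * c → m = 1) ∧
      (Subgroup.centralizer (M : Set G)).index ∣ Nat.card M - 1 := by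
  haveI := hM.1
  have h1 : ∀ c, c ∉ Subgroup.centralizer (M : Set G) → ∀ m ∈ M, c * m = m * c → m = 1 := by
    intro c hc m hm e
    have hn : (M ⊓ Subgroup.centralizer ({c} : Set G)).Normal := ⟨fun d hd g => by
      refine ⟨hM.1.conj_mem d hd.1 g, Subgroup.mem_centralizer_singleton_iff.2 ?_⟩
      have h2 := h (Subgroup.commutator_mem_commutator (Subgroup.mem_top g⁻¹)
        (Subgroup.mem_top c)) _ hd.1
      have h3 := Subgroup.mem_centralizer_singleton_iff.1 hd.2
      rw [commutatorElement_def] at h2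
      calc g * d * g⁻¹ * c = g * (d * (g⁻¹ * c * g⁻¹⁻¹ * c⁻¹)) * c * g⁻¹ := by group
        _ = g * (g⁻¹ * c * g⁻¹⁻¹ * c⁻¹) * (d * c) * g⁻¹ := by rw [h2]; group
        _ = _ := by rw [h3]; group⟩
    rcases hM.2.2 _ hn inf_le_left with e' | e'
    · have : m ∈ M ⊓ Subgroup.centralizer ({c} : Set G) :=
        ⟨hm, Subgroup.mem_centralizer_singleton_iff.2 e.symm⟩
      rwa [e'] at this
    · exact absurd (fun x hx => Subgroup.mem_centralizer_singleton_iff.1
        ((e'.ge.trans inf_le_right) hx)) hc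
  refine ⟨h1, ?_⟩
  let ρ : G ⧸ Subgroup.centralizer (M : Set G) →* MulAut M :=
    QuotientGroup.lift _ MulAut.conjNormal fun x hx => by
      ext v
      show x * v * x⁻¹ = v
      rw [← hx v v.2, mul_inv_cancel_right]
  let _ : MulDistribMulAction (G ⧸ Subgroup.centralizer (M : Set G)) M :=
    MulDistribMulAction.compHom M ρ
  have h2 := card_modEq_one_of_free (A := G ⧸ Subgroup.centralizer (M : Set G)) (1 : M)
    (fun a => smul_one a) fun a x hx e => by
      induction a using QuotientGroup.induction_on with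
      | H a =>
        by_contra ha
        have e' : a * x * a⁻¹ = x := congrArg Subtype.val e
        exact hx (Subtype.ext (h1 a (fun h => ha ((QuotientGroup.eq_one_iff a).2 h)) x x.2
          (mul_inv_eq_iff_eq_mul.1 e')))
  exact (Nat.modEq_iff_dvd' Nat.card_pos).1 h2.symm

theorem chief_semiregular {A B : Subgroup G} [A.Normal] (hB : B.Normal) (hAB : A < B)
    (hc : ∀ M : Subgroup G, M.Normal → A ≤ M → M ≤ B → M = A ∨ M = B)
    (h : ⁅commutator G, B⁆ ≤ A) :
    ∃ C : Subgroup G, commutator G ≤ C ∧ (∀ c ∈ C, ∀ b ∈ B, ⁅c, b⁆ ∈ A) ∧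
      (∀ c, c ∉ C → ∀ b ∈ B, ⁅c, b⁆ ∈ A → b ∈ A) ∧ C.index ∣ A.relIndex B - 1 := by
  have hmem : ∀ c, c ∈ (Subgroup.centralizer ((B.map (QuotientGroup.mk' A) : Subgroup (G ⧸ A)) :
      Set (G ⧸ A))).comap (QuotientGroup.mk' A) ↔ ∀ b ∈ B, ⁅c, b⁆ ∈ A := by
    intro c
    constructor
    · intro hc b hb
      rw [← QuotientGroup.eq_one_iff, ← QuotientGroup.mk'_apply, map_commutatorElement,
        commutatorElement_eq_one_iff_mul_comm]
      exact (hc _ ⟨b, hb, rfl⟩).symm
    · rintro hc _ ⟨b, hb, rfl⟩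
      have := hc b hb
      rw [← QuotientGroup.eq_one_iff, ← QuotientGroup.mk'_apply, map_commutatorElement,
        commutatorElement_eq_one_iff_mul_comm] at this
      exact this.symm
  have hle : commutator G ≤ (Subgroup.centralizer ((B.map (QuotientGroup.mk' A) :
      Subgroup (G ⧸ A)) : Set (G ⧸ A))).comap (QuotientGroup.mk' A) := fun c hc =>
    (hmem c).2 fun b hb => h (Subgroup.commutator_mem_commutator hc hb)
  obtain ⟨h1, h2⟩ := minNormal_semiregular (isMinNormal_map_mk_of_chief hB hAB hc)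
    (by rw [commutator_quot]; exact Subgroup.map_le_iff_le_comap.2 hle)
  refine ⟨_, hle, fun c hc => (hmem c).1 hc, fun c hc b hb e => ?_, ?_⟩
  · rw [← QuotientGroup.eq_one_iff, ← QuotientGroup.mk'_apply, map_commutatorElement,
      commutatorElement_eq_one_iff_mul_comm] at e
    exact (QuotientGroup.eq_one_iff b).1 (h1 _ hc _ ⟨b, hb, rfl⟩ e)
  · rwa [index_comap_mk, ← card_map_mk]

/-- `G' \ K` is one conjugacy class and the centre of `G / K` lies in `G' / K` -/
structure OneCl (G : Type u) [Group G] (K : Subgroup G) : Prop where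
  normal : K.Normal
  lt : K < commutator G
  cj : ∀ x ∈ commutator G, x ∉ K → ∀ y ∈ commutator G, y ∉ K → IsConj x y
  cent : ∀ y, (∀ u, ⁅y, u⁆ ∈ K) → y ∈ commutator G

namespace OneCl

variable {K : Subgroup G}

omit [Finite G] in
theorem quotient (h : OneCl G K) (W : Subgroup G) [W.Normal] (hW : W ≤ K) :
    OneCl (G ⧸ W) (K.map (QuotientGroup.mk' W)) := by
  have hW' := hW.trans h.lt.le
  refine ⟨h.normal.map _ (QuotientGroup.mk'_surjective W), ?_, ?_, ?_⟩
  · rw [commutator_quot]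
    refine lt_of_le_of_ne (Subgroup.map_mono h.lt.le) fun e => h.lt.not_ge fun x hx => ?_
    rw [← mk_mem_map_mk_iff hW, e, mk_mem_map_mk_iff hW']
    exact hx
  · rw [commutator_quot]
    rintro _ ⟨x, hx, rfl⟩ hx' _ ⟨y, hy, rfl⟩ hy'
    exact (QuotientGroup.mk' W).map_isConj (h.cj x hx (fun e => hx' ⟨x, e, rfl⟩) y hy
      fun e => hy' ⟨y, e, rfl⟩)
  · intro y hy
    induction y using QuotientGroup.induction_on with
    | H y =>
      rw [commutator_quot, mk_mem_map_mk_iff hW']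
      refine h.cent y fun u => ?_
      rw [← mk_mem_map_mk_iff hW]
      exact hy u

omit [Finite G] in
theorem chief (h : OneCl G K) (M : Subgroup G) (hM : M.Normal) (h1 : K ≤ M)
    (h2 : M ≤ commutator G) : M = K ∨ M = commutator G := by
  by_cases e : M = K
  · exact Or.inl e
  obtain ⟨x, hx, hxK⟩ := SetLike.exists_of_lt (lt_of_le_of_ne h1 (Ne.symm e))
  refine Or.inr (le_antisymm h2 fun y hy => ?_)
  by_cases hyK : y ∈ K
  · exact h1 hyK
  obtain ⟨c, rfl⟩ := isConj_iff.1 (h.cj x (h2 hx) hxK y hy hyK)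
  exact hM.conj_mem x hx c

theorem exists_prime (h : OneCl G K) :
    ∃ p : ℕ, p.Prime ∧ ∀ x ∈ commutator G, x ∉ K → ∃ k, orderOf x = p ^ k := by
  haveI := h.normal
  obtain ⟨y, hy, hyK⟩ := SetLike.exists_of_lt h.lt
  have h1 : orderOf (QuotientGroup.mk' K y) ≠ 1 := fun e =>
    hyK ((QuotientGroup.eq_one_iff _).1 (orderOf_eq_one_iff.1 e))
  obtain ⟨p, hp, hd⟩ := Nat.exists_prime_and_dvd h1
  haveI := Fact.mk hp
  refine ⟨p, hp, fun x hx hxK => ?_⟩
  have h2 : pPart p y ∉ K := fun e => pPart_ne_one_iff.2 hd (by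
    rw [← map_pPart]; exact (QuotientGroup.eq_one_iff _).2 e)
  obtain ⟨c, rfl⟩ := isConj_iff.1 (h.cj _ (pPart_mem p hy) h2 x hx hxK)
  obtain ⟨k, hk⟩ := exists_orderOf_pPart (p := p) y
  exact ⟨k, by rw [← hk]; exact (MulAut.conj c).orderOf_eq _⟩

theorem index_centralizer (h : OneCl G K) {x : G} (hx : x ∈ commutator G) (hxK : x ∉ K) :
    (Subgroup.centralizer ({x} : Set G)).index =
      Nat.card K * (K.relIndex (commutator G) - 1) := by
  classical
  haveI := Fintype.ofFinite G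
  rw [← card_filter_isConj, Nat.mul_sub, mul_one, card_mul_relIndex h.lt.le]
  have h1 : (Finset.univ.filter fun y : G => IsConj x y) =
      (Finset.univ.filter fun y : G => y ∈ commutator G) \
        (Finset.univ.filter fun y : G => y ∈ K) := by
    ext y
    simp only [Finset.mem_filter, Finset.mem_univ, true_and, Finset.mem_sdiff]
    constructor
    · intro e
      obtain ⟨c, rfl⟩ := isConj_iff.1 e
      exact ⟨Subgroup.Normal.conj_mem inferInstance x hx c,
        fun e' => hxK (by simpa [mul_assoc] using h.normal.mem_comm e')⟩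
    · exact fun e => h.cj x hx hxK y e.1 e.2
  have h2 : ∀ S : Subgroup G, (Finset.univ.filter fun y : G => y ∈ S).card = Nat.card S :=
    fun S => by rw [Nat.card_eq_fintype_card, Fintype.card_subtype]
  convert (Finset.card_sdiff_of_subset (s := Finset.univ.filter fun y : G => y ∈ K)
    (t := Finset.univ.filter fun y : G => y ∈ commutator G) fun y hy => ?_) using 1
  · rw [← h1]
  · rw [h2, h2]
  · simp only [Finset.mem_filter, Finset.mem_univ, true_and] at hy ⊢
    exact h.lt.le hy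

variable {p : ℕ} [Fact p.Prime]

theorem commutator_mem (h : OneCl G K)
    (hp : ∀ x ∈ commutator G, x ∉ K → ∃ k, orderOf x = p ^ k) {P : Subgroup G}
    (hP : IsPGroup p P) {u x : G} (hu : u ∈ P) (hx : x ∈ commutator G) : ⁅u, x⁆ ∈ K := by
  haveI := h.normal
  have hM := isMinNormal_map_mk_of_chief inferInstance h.lt h.chief
  have hH : IsPGroup p ((commutator G).map (QuotientGroup.mk' K)) := by
    rintro ⟨_, y, hy, rfl⟩
    by_cases hyK : y ∈ K
    · exact ⟨0, Subtype.ext (by simpa using hyK)⟩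
    · obtain ⟨k, hk⟩ := hp y hy hyK
      exact ⟨k, Subtype.ext (by
        show (QuotientGroup.mk' K y) ^ p ^ k = 1
        rw [← map_pow, ← hk, pow_orderOf_eq_one, map_one])⟩
  haveI := hM.1
  have h1 : (commutator G).map (QuotientGroup.mk' K) ⊔ P.map (QuotientGroup.mk' K) ≤
      pCore p (G ⧸ K) :=
    le_pCore (Subgroup.Normal.of_commutator_le _ (by rw [commutator_quot]; exact le_sup_left))
      (hH.to_sup_of_normal_left (hP.map _))
  have h2 := pCore_le_centralizer_of_isMinNormal p hM (h1 (Subgroup.mem_sup_right ⟨u, hu, rfl⟩))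
    _ ⟨x, hx, rfl⟩
  rw [← QuotientGroup.eq_one_iff, ← QuotientGroup.mk'_apply, map_commutatorElement,
    commutatorElement_eq_one_iff_mul_comm]
  exact h2.symm

theorem exists_commutator_eq (h : OneCl G K)
    (hp : ∀ x ∈ commutator G, x ∉ K → ∃ k, orderOf x = p ^ k) {P : Subgroup G}
    (hP : IsPGroup p P) (hPi : ¬ p ∣ P.index) {x : G} (hxP : x ∈ P) (hx : x ∈ commutator G)
    (hxK : x ∉ K) {k : G} (hk : k ∈ K ⊓ P) : ∃ u ∈ P, ⁅u, x⁆ = k := by
  set C := Subgroup.centralizer ({x} : Set G) with hC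
  have hle : Nat.card (K ⊓ P : Subgroup G) ≤ C.relIndex P := by
    refine Nat.le_of_dvd (Nat.pos_of_ne_zero Subgroup.FiniteIndex.index_ne_zero) ?_
    have h1 : Nat.card (K ⊓ P : Subgroup G) * Nat.card (C ⊓ P : Subgroup G) ∣
        Nat.card P * P.index := by
      rw [Subgroup.card_mul_index, ← C.index_mul_card, h.index_centralizer hx hxK]
      exact Nat.mul_dvd_mul ((Subgroup.card_dvd_of_le inf_le_left).mul_right _)
        (Subgroup.card_dvd_of_le inf_le_left)
    have h2 := Nat.Coprime.dvd_of_dvd_mul_right (Nat.Coprime.mul_left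
      (coprime_card_of_isPGroup (hP.to_le inf_le_right) hPi)
      (coprime_card_of_isPGroup (hP.to_le inf_le_right) hPi)) h1
    rw [← card_inf_mul_relIndex C P, mul_comm (Nat.card (C ⊓ P : Subgroup G))] at h2
    exact Nat.dvd_of_mul_dvd_mul_right Nat.card_pos h2
  let f : P ⧸ C.subgroupOf P → (K ⊓ P : Subgroup G) := fun q =>
    ⟨⁅(q.out : G), x⁆, h.commutator_mem hp hP q.out.2 hx,
      P.mul_mem (P.mul_mem (P.mul_mem q.out.2 hxP) (P.inv_mem q.out.2)) (P.inv_mem hxP)⟩
  have hf : Function.Injective f := by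
    intro a b e
    rw [← QuotientGroup.out_eq' a, ← QuotientGroup.out_eq' b, QuotientGroup.eq]
    refine Subgroup.mem_centralizer_singleton_iff.2 ?_
    have e' : (a.out : G) * x * (a.out : G)⁻¹ * x⁻¹ = b.out * x * (b.out : G)⁻¹ * x⁻¹ :=
      congrArg Subtype.val e
    show ((a.out : G)⁻¹ * b.out) * x = x * ((a.out : G)⁻¹ * b.out)
    calc ((a.out : G)⁻¹ * b.out) * x
        = (a.out : G)⁻¹ * (b.out * x * (b.out : G)⁻¹ * x⁻¹) * x * b.out := by group
      _ = _ := by rw [← e']; group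
  obtain ⟨q, hq⟩ := (hf.bijective_of_nat_card_le hle).2 ⟨k, hk⟩
  exact ⟨q.out, q.out.2, congrArg Subtype.val hq⟩

theorem hasNormalPComplement (h : OneCl G K)
    (hp : ∀ x ∈ commutator G, x ∉ K → ∃ k, orderOf x = p ^ k) : HasNormalPComplement p K := by
  haveI := h.normal
  obtain ⟨x, hx, hxK⟩ := SetLike.exists_of_lt h.lt
  obtain ⟨P, hxP⟩ := exists_mem_sylow_of_orderOf (hp x hx hxK)
  refine hasNormalPComplement_of_inf_le_frattini P K fun k hk => ?_
  obtain ⟨u, hu, rfl⟩ := h.exists_commutator_eq hp P.isPGroup' P.not_dvd_index hxP hx hxK hk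
  exact ⟨⁅⟨u, hu⟩, ⟨x, hxP⟩⁆, commutator_le_frattini_of_isPGroup P.isPGroup'
    (Subgroup.commutator_mem_commutator (Subgroup.mem_top _) (Subgroup.mem_top _)), rfl⟩

theorem dichotomy (h : OneCl G K)
    (hp : ∀ x ∈ commutator G, x ∉ K → ∃ k, orderOf x = p ^ k) :
    (∀ c : G, ∀ y ∈ commutator G, ⁅c, y⁆ ∈ K) ∨
      ∀ c, c ∉ commutator G → ∀ y ∈ commutator G, ⁅c, y⁆ ∈ K → y ∈ K := by
  haveI := h.normal
  have hHH : ⁅commutator G, commutator G⁆ ≤ K := by
    rcases h.chief (⁅commutator G, commutator G⁆ ⊔ K) inferInstance le_sup_right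
      (sup_le (Subgroup.commutator_le_left _ _) h.lt.le) with e | e
    · exact le_sup_left.trans e.le
    · refine Subgroup.commutator_le.2 fun a ha b hb => ?_
      by_cases haK : a ∈ K
      · exact Subgroup.commutator_le_left K ⊤
          (Subgroup.commutator_mem_commutator haK (Subgroup.mem_top b))
      · exact h.commutator_mem hp (isPGroup_zpowers_iff.2 (hp a ha haK))
          (Subgroup.mem_zpowers a) hb
  obtain ⟨C, h1, h2, h3, -⟩ := chief_semiregular inferInstance h.lt h.chief hHH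
  by_cases hC : C = ⊤
  · exact Or.inl fun c => h2 c (hC ▸ Subgroup.mem_top c)
  refine Or.inr fun c hc => h3 c fun hcC => hc ?_
  obtain ⟨a, ha⟩ : ∃ a, a ∉ C := by
    by_contra hn
    push Not at hn
    exact hC (eq_top_iff.2 fun a _ => hn a)
  set π := QuotientGroup.mk' K with hπ
  have hcomm : ∀ c y, ⁅c, y⁆ ∈ K ↔ π c * π y = π y * π c := fun c y => by
    rw [← QuotientGroup.eq_one_iff, ← QuotientGroup.mk'_apply, map_commutatorElement,
      commutatorElement_eq_one_iff_mul_comm]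
  have hfpf : ∀ n ∈ (commutator G).map π, π a * n = n * π a → n = 1 := by
    rintro _ ⟨y, hy, rfl⟩ e
    exact (QuotientGroup.eq_one_iff y).2 (h3 a ha y hy ((hcomm a y).2 e))
  haveI : ((commutator G).map π).Normal :=
    Subgroup.Normal.map inferInstance _ (QuotientGroup.mk'_surjective K)
  obtain ⟨_, ⟨n, hn, rfl⟩, e⟩ := exists_conj_eq_mul_of_fixedPointFree
    (Subgroup.le_normalizer_of_normal (Subgroup.mem_top (π a))) hfpf (m := π ⁅c, a⁆)
    ⟨_, Subgroup.commutator_mem_commutator (Subgroup.mem_top c) (Subgroup.mem_top a), rfl⟩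
  have hd : π (n⁻¹ * c) * π a = π a * π (n⁻¹ * c) := by
    rw [map_commutatorElement, commutatorElement_def] at e
    rw [map_mul, map_inv]
    calc (π n)⁻¹ * π c * π a = (π n)⁻¹ * (π c * π a * (π c)⁻¹ * (π a)⁻¹ * π a) * π c := by group
      _ = _ := by rw [← e]; group
  have hdC : n⁻¹ * c ∈ C := C.mul_mem (C.inv_mem (h1 hn)) hcC
  set d := n⁻¹ * c with hdd
  have hdH : d ∈ commutator G := by
    refine h.cent d fun u => ?_
    rw [← commutatorElement_inv]
    refine K.inv_mem (h3 a ha _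
      (Subgroup.commutator_mem_commutator (Subgroup.mem_top u) (Subgroup.mem_top d)) ?_)
    rw [hcomm, map_commutatorElement, commutatorElement_def]
    have e1 := (hcomm d ⁅u⁻¹, a⁆).1 (h2 d hdC _
      (Subgroup.commutator_mem_commutator (Subgroup.mem_top _) (Subgroup.mem_top _)))
    rw [map_commutatorElement, commutatorElement_def, map_inv] at e1
    have e2 : Commute (π a) (π d) := hd.symm
    have e3 : Commute (π a) (π u * π d * (π u)⁻¹) := by
      show π a * (π u * π d * (π u)⁻¹) = π u * π d * (π u)⁻¹ * π a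
      calc π a * (π u * π d * (π u)⁻¹)
          = π u * (((π u)⁻¹ * π a * (π u)⁻¹⁻¹ * (π a)⁻¹) * (π a * π d)) * (π u)⁻¹ := by group
        _ = π u * (((π u)⁻¹ * π a * (π u)⁻¹⁻¹ * (π a)⁻¹) * π d) * π a * (π u)⁻¹ := by
          rw [e2.eq]; group
        _ = _ := by rw [← e1]; group
    exact e3.mul_right e2.inv_right
  have : c = n * d := by rw [hdd]; group
  rw [this]
  exact Subgroup.mul_mem _ hn hdH

omit [Finite G] in
theorem mul_mem_of_central (h : OneCl G K) (hc : ∀ c : G, ∀ y ∈ commutator G, ⁅c, y⁆ ∈ K)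
    {x y : G} (hx : x ∈ commutator G) (hxK : x ∉ K) (hy : y ∈ commutator G) (hyK : y ∉ K) :
    x * y ∈ K := by
  obtain ⟨c, e⟩ := isConj_iff.1 (h.cj y⁻¹ (inv_mem hy) (fun e => hyK (inv_mem_iff.1 e)) x hx hxK)
  have := hc c _ (inv_mem hy)
  rwa [commutatorElement_def, e, inv_inv] at this

omit [Finite G] in
theorem sq_mem_of_central (h : OneCl G K) (hc : ∀ c : G, ∀ y ∈ commutator G, ⁅c, y⁆ ∈ K)
    {x : G} (hx : x ∈ commutator G) : x * x ∈ K := by
  by_cases hxK : x ∈ K
  · exact K.mul_mem hxK hxK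
  · exact h.mul_mem_of_central hc hx hxK hx hxK

omit [Finite G] in
theorem sq_mem_commutator_of_central (h : OneCl G K)
    (hc : ∀ c : G, ∀ y ∈ commutator G, ⁅c, y⁆ ∈ K) (g : G) : g * g ∈ commutator G := by
  refine h.cent _ fun u => ?_
  have h1 : ⁅g, u⁆ ∈ commutator G :=
    Subgroup.commutator_mem_commutator (Subgroup.mem_top _) (Subgroup.mem_top _)
  have : ⁅g * g, u⁆ = ⁅g, ⁅g, u⁆⁆ * (⁅g, u⁆ * ⁅g, u⁆) := by
    simp only [commutatorElement_def]; group
  rw [this]
  exact K.mul_mem (hc g _ h1) (h.sq_mem_of_central hc h1)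

omit [Finite G] in
theorem false_of_central (h : OneCl G K) (hc : ∀ c : G, ∀ y ∈ commutator G, ⁅c, y⁆ ∈ K)
    {Z : Subgroup G} (hZK : Z < K) (hZ0 : Z ≠ ⊥) (hZc : Z ≤ Subgroup.center G)
    (hi : Z.relIndex K = 2) (hKZ : ⁅K, (⊤ : Subgroup G)⁆ ≤ Z) : False := by
  haveI := h.normal
  have hZn : Z.Normal := ⟨fun z hz g => by
    rw [Subgroup.mem_center_iff.1 (hZc hz) g, mul_inv_cancel_right]; exact hz⟩
  have hZ2 : ∀ k ∈ K, k ∉ Z → ∀ k' ∈ K, k' ∉ Z → k * k' ∈ Z := fun k hk hkZ k' hk' hkZ' =>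
    (Subgroup.mul_mem_iff_of_index_two (H := Z.subgroupOf K) hi (a := ⟨k, hk⟩)
      (b := ⟨k', hk'⟩)).2 ⟨fun e => absurd e hkZ, fun e => absurd e hkZ'⟩
  have hK1 : ∀ k ∈ K, ∀ g : G, ⁅k, g⁆ ∈ Z := fun k hk g =>
    hKZ (Subgroup.commutator_mem_commutator hk (Subgroup.mem_top g))
  have hK2 : ∀ k ∈ K, ∀ g : G, ⁅g, k⁆ ∈ Z := fun k hk g => by
    rw [← commutatorElement_inv]; exact Z.inv_mem (hK1 k hk g)
  have hcm : ∀ a b : G, ⁅a, b⁆ ∈ commutator G := fun a b =>
    Subgroup.commutator_mem_commutator (Subgroup.mem_top _) (Subgroup.mem_top _)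
  obtain ⟨y₀, hy₀, hy₀K⟩ := SetLike.exists_of_lt h.lt
  have hD : ∀ c : G, ∀ y ∈ commutator G, y ∉ K → ⁅c, y⁆ ∈ Z →
      ∀ y' ∈ commutator G, ⁅c, y'⁆ ∈ Z := by
    intro c y hy hyK e y' hy'
    by_cases hyK' : y' ∈ K
    · exact hK2 _ hyK' c
    have h1 := h.mul_mem_of_central hc (inv_mem hy) (fun e => hyK (inv_mem_iff.1 e)) hy' hyK'
    rw [← mul_inv_cancel_left y y', commutatorElement_mul_right_eq_mul_conj, mul_assoc, mul_assoc,
      ← mul_assoc y]
    exact Z.mul_mem e (hZn.conj_mem _ (hK2 _ h1 c) y)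
  have hHD : ∀ c ∈ commutator G, ⁅c, y₀⁆ ∈ Z := by
    intro c hcH
    by_cases hcK : c ∈ K
    · exact hK1 c hcK _
    · exact hD c c hcH hcK (by rw [commutatorElement_self]; exact Z.one_mem) _ hy₀
  have hDD : ∀ c c' : G, ⁅c, y₀⁆ ∉ Z → ⁅c', y₀⁆ ∉ Z → ⁅c * c', y₀⁆ ∈ Z := by
    intro c c' e e'
    rw [commutatorElement_mul_left_eq_conj_mul]
    refine hZ2 _ (h.normal.conj_mem _ (hc c' _ hy₀) c) (fun e'' => e' ?_) _ (hc c _ hy₀) e
    simpa [mul_assoc] using hZn.mem_comm e''
  have hex : ∀ k ∈ K, ∃ b : G, ⁅b, y₀⁆ = k := by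
    intro k hk
    obtain ⟨b, e⟩ := isConj_iff.1 (h.cj y₀ hy₀ hy₀K (k * y₀) (mul_mem (h.lt.le hk) hy₀)
      fun e => hy₀K ((K.mul_mem_cancel_left hk).1 e))
    exact ⟨b, by rw [commutatorElement_def, e, mul_inv_cancel_right]⟩
  obtain ⟨k, hk, hkZ⟩ := SetLike.exists_of_lt hZK
  obtain ⟨b, rfl⟩ := hex k hk
  have key : ∀ a : G, ⁅a, y₀⁆ ∈ Z → ⁅a, b⁆ ∉ K → ⁅a, y₀⁆ = 1 := by
    intro a ha hab
    set y := ⁅a, b⁆ with hy
    have hyH : y ∈ commutator G := hcm a b
    have h1 : ⁅b, y⁆ ∉ Z := fun e => hkZ (hD b y hyH hab e _ hy₀)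
    have h2 : y * y ∉ Z := by
      intro e
      have h3 := hD a y₀ hy₀ hy₀K ha _ (h.sq_mem_commutator_of_central hc b)
      have h4 : ⁅a, b * b⁆ = y * ⁅b, y⁆ * y⁻¹ * (y * y) := by
        simp only [hy, commutatorElement_def]; group
      rw [h4, Z.mul_mem_cancel_right e] at h3
      exact h1 (by simpa [mul_assoc] using hZn.mem_comm h3)
    have h3 : a * a ∉ K := by
      intro e
      have h4 : ⁅a * a, b⁆ = ⁅a, y⁆ * (y * y) := by
        simp only [hy, commutatorElement_def]; group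
      have h5 := hK1 _ e b
      rw [h4, Z.mul_mem_cancel_left (hD a y₀ hy₀ hy₀K ha _ hyH)] at h5
      exact h2 h5
    have haH := h.sq_mem_commutator_of_central hc a
    have h4 : a * a * (a * a) ∉ Z := by
      obtain ⟨c, e⟩ := isConj_iff.1 (h.cj _ haH h3 y hyH hab)
      intro e'
      refine h2 ?_
      have := hZn.conj_mem _ e' c
      rwa [← conj_mul, e] at this
    have h5 : ∀ k ∈ K, Commute a k := by
      intro k hk
      by_cases hkZ : k ∈ Z
      · exact Subgroup.mem_center_iff.1 (hZc hkZ) a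
      · have h6 : Commute a (k * (a * a * (a * a))) := Subgroup.mem_center_iff.1
          (hZc (hZ2 k hk hkZ _ (h.sq_mem_of_central hc haH) h4)) a
        have h7 : Commute a (a * a * (a * a)) :=
          ((Commute.refl a).mul_right (Commute.refl a)).mul_right
            ((Commute.refl a).mul_right (Commute.refl a))
        simpa only [mul_inv_cancel_right] using h6.mul_right h7.inv_right
    have h6 := h5 _ (h.mul_mem_of_central hc hy₀ hy₀K haH h3)
    rw [commutatorElement_eq_one_iff_commute]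
    simpa only [mul_inv_cancel_right] using
      h6.mul_right ((Commute.refl a).mul_right (Commute.refl a)).inv_right
  obtain ⟨a, ha, hab⟩ : ∃ a : G, ⁅a, y₀⁆ ∈ Z ∧ ⁅a, b⁆ ∉ K := by
    by_contra hn
    push Not at hn
    refine hkZ (hHD b (h.cent b fun u => ?_))
    rw [← commutatorElement_inv]
    refine K.inv_mem ?_
    by_cases hu : ⁅u, y₀⁆ ∈ Z
    · exact hn u hu
    · have := hn _ (hDD u b hu hkZ)
      rwa [commutatorElement_mul_left_eq_conj_mul, commutatorElement_self, mul_one,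
        mul_inv_cancel, one_mul] at this
  obtain ⟨⟨z, hz⟩, hz1⟩ := Subgroup.ne_bot_iff_exists_ne_one.1 hZ0
  obtain ⟨a', rfl⟩ := hex z (hZK.le hz)
  refine hz1 (Subtype.ext ?_)
  by_cases e : ⁅a', b⁆ ∈ K
  swap
  · exact key a' hz e
  have h1 := key (a * a') (by
    rw [commutatorElement_mul_left_eq_conj_mul]
    exact Z.mul_mem (hZn.conj_mem _ hz a) ha) (by
    rw [commutatorElement_mul_left_eq_conj_mul,
      K.mul_mem_cancel_left (h.normal.conj_mem _ e a)]
    exact hab)
  rw [commutatorElement_mul_left_eq_conj_mul, key a ha hab, mul_one] at h1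
  simpa using h1

theorem pow_four_of_central (h : OneCl G K) (hK : IsPGroup 2 K)
    (hc : ∀ c : G, ∀ y ∈ commutator G, ⁅c, y⁆ ∈ K) {x : G} (hx : x ∈ commutator G) :
    x ^ 4 = 1 := by
  haveI := h.normal
  haveI := Fact.mk Nat.prime_two
  have hG : IsPGroup 2 G := by
    intro g
    obtain ⟨k, hk⟩ := hK ⟨_, h.sq_mem_of_central hc (h.sq_mem_commutator_of_central hc g)⟩
    refine ⟨2 + k, ?_⟩
    have : (g * g * (g * g)) ^ 2 ^ k = 1 := congrArg Subtype.val hk
    rw [pow_add, pow_mul, ← this]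
    congr 1
    show g ^ 4 = _
    simp only [pow_succ, pow_zero]; group
  have hx2 := h.sq_mem_of_central hc hx
  have hx4 : x ^ 4 = (x * x) ^ 2 := by simp only [pow_succ, pow_zero]; group
  have hch : ∀ (L : Subgroup G) [L.Normal], L ≠ ⊥ → ∃ W : Subgroup G, W.Normal ∧ W < L ∧
      W.relIndex L = 2 ∧ ⁅L, (⊤ : Subgroup G)⁆ ≤ W := by
    intro L hL hL0
    obtain ⟨W, hW, -, hWL, hmax⟩ := exists_chiefFactor_below (N := ⊥) inferInstance hL
      (bot_lt_iff_ne_bot.2 hL0)
    obtain ⟨L', h1, h2, h3, h4, h5⟩ := exists_normal_relIndex_eq_of_isPGroup hG hWL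
    rcases hmax L' h1 h2 h3 with e | e
    · rw [e, Subgroup.relIndex_self] at h4
      omega
    · exact ⟨W, hW, hWL, e ▸ h4, e ▸ h5⟩
  by_cases hK0 : K = ⊥
  · rw [hK0, Subgroup.mem_bot] at hx2
    rw [hx4, hx2, one_pow]
  obtain ⟨Z, hZ, hZK, hZi, hZc⟩ := hch K hK0
  by_cases hZ0 : Z = ⊥
  · rw [hZ0, Subgroup.relIndex_bot_left] at hZi
    rw [hx4, ← hZi]
    exact congrArg Subtype.val (pow_card_eq_one' (x := (⟨_, hx2⟩ : K)))
  obtain ⟨W, hW, hWZ, -, hWc⟩ := hch Z hZ0
  exfalso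
  have hWK := hWZ.le.trans hZK.le
  refine (h.quotient W hWK).false_of_central ?_ (Z := Z.map (QuotientGroup.mk' W)) ?_ ?_ ?_ ?_ ?_
  · intro c y hy
    rw [commutator_quot] at hy
    obtain ⟨y, hy, rfl⟩ := hy
    induction c using QuotientGroup.induction_on with
    | H c => exact ⟨_, hc c y hy, rfl⟩
  · refine lt_of_le_of_ne (Subgroup.map_mono hZK.le) fun e => hZK.not_ge fun x hx => ?_
    rw [← mk_mem_map_mk_iff hWZ.le, e, mk_mem_map_mk_iff hWK]
    exact hx
  · exact fun e => hWZ.not_ge (map_mk_eq_bot_iff.1 e)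
  · rintro _ ⟨z, hz, rfl⟩
    refine Subgroup.mem_center_iff.2 fun g => ?_
    induction g using QuotientGroup.induction_on with
    | H g =>
      have := (QuotientGroup.eq_one_iff _).2
        (hWc (Subgroup.commutator_mem_commutator hz (Subgroup.mem_top g)))
      rw [← QuotientGroup.mk'_apply, map_commutatorElement,
        commutatorElement_eq_one_iff_mul_comm] at this
      exact this.symm
  · rw [Subgroup.relIndex_map_map, QuotientGroup.ker_mk', sup_eq_left.2 hWZ.le,
      sup_eq_left.2 hWK, hZi]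
  · rw [← Subgroup.map_top_of_surjective _ (QuotientGroup.mk'_surjective W),
      ← Subgroup.map_commutator]
    exact Subgroup.map_mono hZc

end OneCl

theorem sq_lt_of_dvd_of_dvd {p d n m : ℕ} (hp : 2 ≤ p) (hd : 0 < d) (hdn : d < n)
    (h1 : m ∣ p ^ d - 1) (h2 : m ∣ p ^ n - 1) : m * m < p ^ n - 1 := by
  have h3 := Nat.dvd_gcd h1 h2
  rw [Nat.pow_sub_one_gcd_pow_sub_one] at h3
  set e := d.gcd n with he
  have he0 : 0 < e := Nat.gcd_pos_of_pos_left _ hd
  obtain ⟨k, hk⟩ : e ∣ n := Nat.gcd_dvd_right d n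
  have hed : e ≤ d := Nat.gcd_le_left _ hd
  have hk2 : 2 ≤ k := by
    by_contra hk'
    have : k = 0 ∨ k = 1 := by omega
    rcases this with rfl | rfl <;> omega
  have h4 : p ^ e * p ^ e ≤ p ^ n := by
    rw [← pow_add]
    exact Nat.pow_le_pow_right (by omega) (by nlinarith)
  have h5 : 2 ≤ p ^ e := hp.trans (Nat.le_self_pow he0.ne' p)
  have h6 := Nat.le_of_dvd (by omega) h3
  obtain ⟨t, ht⟩ : ∃ t, p ^ e = t + 1 := ⟨p ^ e - 1, by omega⟩
  rw [ht] at h4 h5 h6
  have h7 : m ≤ t := by omega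
  have h8 : m * m ≤ t * t := Nat.mul_le_mul h7 h7
  have h9 : t * t + 2 * t + 1 ≤ p ^ n := by nlinarith
  omega

omit [Finite G] in
theorem mul_pow_of_central_commutator {a b c : G} (h : b * a = c * (a * b)) (ha : Commute c a)
    (hb : Commute c b) (n : ℕ) : (a * b) ^ n = c ^ (n.choose 2) * (a ^ n * b ^ n) := by
  have h1 : ∀ n : ℕ, b ^ n * a = c ^ n * (a * b ^ n) := by
    intro n
    induction n with
    | zero => simp
    | succ n ih =>
      calc b ^ (n + 1) * a = b * (b ^ n * a) := by rw [pow_succ', mul_assoc]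
        _ = (b * c ^ n) * (a * b ^ n) := by rw [ih, mul_assoc]
        _ = c ^ n * (b * a) * b ^ n := by rw [← (hb.pow_left n).eq]; group
        _ = _ := by rw [h]; group
  induction n with
  | zero => simp
  | succ n ih =>
    rw [pow_succ, ih, Nat.choose_succ_succ' n 1, Nat.choose_one_right]
    calc c ^ n.choose 2 * (a ^ n * b ^ n) * (a * b)
        = c ^ n.choose 2 * a ^ n * (b ^ n * a) * b := by group
      _ = c ^ n.choose 2 * (a ^ n * c ^ n) * (a * b ^ n * b) := by rw [h1]; group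
      _ = _ := by rw [← (ha.pow_pow n n).eq]; group

/-- the affine case -/
structure Agl (p : ℕ) (G : Type u) [Group G] (K : Subgroup G) : Prop extends OneCl G K where
  pg : IsPGroup p (commutator G)
  fpf : ∀ c, c ∉ commutator G → ∀ y ∈ commutator G, ⁅c, y⁆ ∈ K → y ∈ K

namespace Agl

variable {K : Subgroup G} {p : ℕ} [Fact p.Prime]

omit [Finite G] [Fact p.Prime] in
theorem quotient (h : Agl p G K) (W : Subgroup G) [W.Normal] (hW : W ≤ K) :
    Agl p (G ⧸ W) (K.map (QuotientGroup.mk' W)) := by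
  refine ⟨h.toOneCl.quotient W hW, by rw [commutator_quot]; exact h.pg.map _, ?_⟩
  rw [commutator_quot]
  rintro c hc _ ⟨y, hy, rfl⟩ e
  induction c using QuotientGroup.induction_on with
  | H c =>
    exact ⟨y, h.fpf c (fun e => hc ⟨c, e, rfl⟩) y hy ((mk_mem_map_mk_iff hW).1 e), rfl⟩

theorem pelt (h : Agl p G K) : ∀ x ∈ commutator G, x ∉ K → ∃ k, orderOf x = p ^ k :=
  fun _ hx _ => exists_orderOf_eq_pow_of_mem h.pg hx

theorem comm (h : Agl p G K) {u x : G} (hu : u ∈ commutator G) (hx : x ∈ commutator G) :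
    ⁅u, x⁆ ∈ K := h.toOneCl.commutator_mem h.pelt h.pg hu hx

theorem cam (h : Agl p G K) {x : G} (hx : x ∈ commutator G) (hxK : x ∉ K) {k : G} (hk : k ∈ K) :
    ∃ u ∈ commutator G, ⁅u, x⁆ = k := by
  obtain ⟨P, hP⟩ := h.pg.exists_le_sylow
  obtain ⟨u, hu, e⟩ := h.toOneCl.exists_commutator_eq h.pelt P.isPGroup' P.not_dvd_index (hP hx)
    hx hxK ⟨hk, hP (h.lt.le hk)⟩
  refine ⟨u, ?_, e⟩
  by_contra hn
  exact hxK (h.fpf u hn x hx (e ▸ hk))

theorem card_lt (h : Agl p G K) {X : Subgroup G} (hX : X ≤ K)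
    (hc : X ≤ Subgroup.centralizer (commutator G : Set G)) :
    Nat.card X < K.relIndex (commutator G) := by
  obtain ⟨x, hx, hxK⟩ := SetLike.exists_of_lt h.lt
  set C := Subgroup.centralizer ({x} : Set G) with hC
  have h1 : X < C ⊓ commutator G := by
    refine lt_of_le_of_ne (le_inf (fun y hy => Subgroup.mem_centralizer_singleton_iff.2
      (hc hy x hx).symm) (hX.trans h.lt.le)) fun e => hxK (hX ?_)
    rw [e]
    exact ⟨Subgroup.mem_centralizer_singleton_iff.2 rfl, hx⟩
  have h2 : Nat.card K ≤ C.relIndex (commutator G) := by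
    refine Nat.card_le_card_of_injective (fun k : K => (QuotientGroup.mk
      ⟨_, (h.cam hx hxK k.2).choose_spec.1⟩ : commutator G ⧸ C.subgroupOf (commutator G)))
      fun a b e => Subtype.ext ?_
    have e' := Subgroup.mem_centralizer_singleton_iff.1
      (Subgroup.mem_subgroupOf.1 (QuotientGroup.eq.1 e))
    rw [← (h.cam hx hxK a.2).choose_spec.2, ← (h.cam hx hxK b.2).choose_spec.2]
    set u := (h.cam hx hxK a.2).choose
    set v := (h.cam hx hxK b.2).choose
    change u⁻¹ * v * x = x * (u⁻¹ * v) at e'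
    simp only [commutatorElement_def]
    calc u * x * u⁻¹ * x⁻¹ = u * (x * (u⁻¹ * v)) * v⁻¹ * x⁻¹ := by group
      _ = _ := by rw [← e']; group
  have h3 := card_inf_mul_relIndex C (commutator G)
  have h4 := card_mul_relIndex h.lt.le
  have h5 := card_lt_of_lt h1
  by_contra hn
  have h6 : 0 < Nat.card K := Nat.card_pos
  nlinarith

theorem relIndex_lt (h : Agl p G K) {W X : Subgroup G} [W.Normal] (hW : W ≤ X) (hX : X ≤ K)
    (hc : ⁅X, commutator G⁆ ≤ W) : W.relIndex X < K.relIndex (commutator G) := by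
  have h1 := (h.quotient W (hW.trans hX)).card_lt (X := X.map (QuotientGroup.mk' W))
    (Subgroup.map_mono hX) (by
      rw [← Subgroup.commutator_eq_bot_iff_le_centralizer, commutator_quot,
        ← Subgroup.map_commutator, map_mk_eq_bot_iff]
      exact hc)
  rwa [card_map_mk, commutator_quot, Subgroup.relIndex_map_map, QuotientGroup.ker_mk',
    sup_eq_left.2 (hW.trans hX), sup_eq_left.2 ((hW.trans hX).trans h.lt.le)] at h1

theorem index_eq (h : Agl p G K) : (commutator G).index = K.relIndex (commutator G) - 1 := by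
  haveI := h.normal
  obtain ⟨x, hx, hxK⟩ := SetLike.exists_of_lt h.lt
  obtain ⟨C, h1, h2, -, h4⟩ := chief_semiregular inferInstance h.lt h.toOneCl.chief
    (Subgroup.commutator_le.2 fun a ha b hb => h.comm ha hb)
  have hC : C = commutator G := le_antisymm (fun c hc => by
    by_contra hn
    exact hxK (h.fpf c hn x hx (h2 c hc x hx))) h1
  have hq : 1 < K.relIndex (commutator G) := by
    have := h.card_lt (X := ⊥) bot_le bot_le
    rwa [Subgroup.card_bot] at this
  refine le_antisymm (Nat.le_of_dvd (by omega) (hC ▸ h4)) ?_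
  have h5 := h.toOneCl.index_centralizer hx hxK
  set Cx := Subgroup.centralizer ({x} : Set G) with hCx
  have h6 : Cx.relIndex (commutator G) ≤ Nat.card K := by
    have := index_centralizer_le_card (G := commutator G) (K := K.subgroupOf (commutator G))
      (x := ⟨x, hx⟩) fun g => h.comm g.2 hx
    rwa [centralizer_singleton_subgroupOf, card_subgroupOf_of_le h.lt.le] at this
  have h7 : Cx.index ≤ Cx.relIndex (commutator G) * (commutator G).index := by
    rw [← Subgroup.inf_relIndex_right, Subgroup.relIndex_mul_index inf_le_right]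
    exact Nat.le_of_dvd (Nat.pos_of_ne_zero Subgroup.FiniteIndex.index_ne_zero)
      (Subgroup.index_dvd_of_le inf_le_left)
  rw [h5] at h7
  exact Nat.le_of_mul_le_mul_left (h7.trans (Nat.mul_le_mul_right _ h6)) Nat.card_pos

theorem exists_small_index (h : Agl p G K) {A B : Subgroup G} [A.Normal] (hB : B.Normal)
    (hAB : A < B) (hBK : B ≤ K)
    (hc : ∀ M : Subgroup G, M.Normal → A ≤ M → M ≤ B → M = A ∨ M = B)
    (h1 : ⁅B, commutator G⁆ ≤ A) :
    ∃ C : Subgroup G, (∀ c ∈ C, ∀ b ∈ B, ⁅c, b⁆ ∈ A) ∧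
      C.index * C.index < (commutator G).index := by
  have hp : p.Prime := Fact.out
  obtain ⟨C, h2, h3, -, h4⟩ := chief_semiregular hB hAB hc (Subgroup.commutator_comm B _ ▸ h1)
  refine ⟨C, h3, ?_⟩
  have h5 := h.relIndex_lt hAB.le hBK h1
  have h6 := Subgroup.index_dvd_of_le h2
  have hpow : ∀ X Y : Subgroup G, Y ≤ commutator G → ∃ n, X.relIndex Y = p ^ n := by
    intro X Y hY
    obtain ⟨e, he⟩ := IsPGroup.iff_card.1 (h.pg.to_le hY)
    obtain ⟨j, -, hj⟩ := (Nat.dvd_prime_pow hp).1 (he ▸ (Subgroup.relIndex_dvd_card X Y))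
    exact ⟨j, hj⟩
  obtain ⟨d, hd⟩ := hpow A B (hBK.trans h.lt.le)
  obtain ⟨n, hn⟩ := hpow K _ le_rfl
  rw [h.index_eq, hn] at h6 ⊢
  rw [hd] at h4
  rw [hd, hn] at h5
  refine sq_lt_of_dvd_of_dvd hp.two_le (Nat.pos_of_ne_zero fun e => ?_)
    ((Nat.pow_lt_pow_iff_right hp.one_lt).1 h5) h4 h6
  rw [e, pow_zero, Subgroup.relIndex_eq_one] at hd
  exact hAB.not_ge hd

theorem false_of_minNormal (h : Agl p G K) (hX : IsMinNormal ⁅K, commutator G⁆) : False := by
  haveI := h.normal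
  set H := commutator G with hH
  set X := ⁅K, H⁆ with hXdef
  have hXK : X ≤ K := Subgroup.commutator_le_left _ _
  have hXc : H ≤ Subgroup.centralizer (X : Set G) :=
    (le_pCore inferInstance h.pg).trans (pCore_le_centralizer_of_isMinNormal p hX)
  set Z := K ⊓ Subgroup.centralizer (H : Set G) with hZ
  have hXZ : X ≤ Z := le_inf hXK (Subgroup.le_centralizer_iff.1 hXc)
  have hZK : Z < K := lt_of_le_of_ne inf_le_left fun e => hX.2.1
    (Subgroup.commutator_eq_bot_iff_le_centralizer.2 (e.ge.trans inf_le_right))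
  obtain ⟨Y, hY, hZY, hYK, hYc⟩ := exists_chiefFactor_above (N := Z) inferInstance h.normal hZK
  obtain ⟨C₁, h1, h1'⟩ := h.exists_small_index hY hZY hYK hYc
    ((Subgroup.commutator_mono hYK le_rfl).trans hXZ)
  obtain ⟨C₀, h0, h0'⟩ := h.exists_small_index (A := ⊥) hX.1 (bot_lt_iff_ne_bot.2 hX.2.1) hXK
    (fun M hM _ hM' => hX.2.2 M hM hM')
    (Subgroup.commutator_eq_bot_iff_le_centralizer.2 (Subgroup.le_centralizer_iff.1 hXc)).le
  obtain ⟨c, ⟨hc0, hc1⟩, hcH⟩ : ∃ c ∈ C₀ ⊓ C₁, c ∉ H := by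
    by_contra hn
    push Not at hn
    have h2 := Nat.le_of_dvd (Nat.pos_of_ne_zero Subgroup.FiniteIndex.index_ne_zero)
      (Subgroup.index_dvd_of_le (show C₀ ⊓ C₁ ≤ H from hn))
    have h3 : (C₀ ⊓ C₁).index ≤ C₀.index * C₁.index := Subgroup.index_inf_le
    rw [← hH] at h0' h1'
    nlinarith
  obtain ⟨y, hy, hyZ⟩ := SetLike.exists_of_lt hZY
  have hyK := hYK hy
  have hcomm : ∀ u ∈ H, ⁅u, y⁆ ∈ X := fun u hu => by
    rw [← commutatorElement_inv]
    exact X.inv_mem (Subgroup.commutator_mem_commutator hyK hu)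
  set T := Subgroup.centralizer ({y} : Set G) with hT
  have hKT : K ≤ T := by
    intro k hk
    obtain ⟨x, hx, hxK⟩ := SetLike.exists_of_lt h.lt
    obtain ⟨u, hu, rfl⟩ := h.cam hx hxK hk
    refine Subgroup.mem_centralizer_singleton_iff.2 ?_
    have e1 := hXc hu _ (hcomm x hx)
    have e2 := hXc hx _ (hcomm u hu)
    have e3 := hXc (h.lt.le (hXK (hcomm u hu))) _ (hcomm x hx)
    have e4 : u * x * y * (u * x)⁻¹ = x * u * y * (x * u)⁻¹ := by
      calc u * x * y * (u * x)⁻¹ = (u * ⁅x, y⁆) * (y * u⁻¹) := by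
            simp only [commutatorElement_def]; group
        _ = ⁅x, y⁆ * ⁅u, y⁆ * y := by rw [← e1]; simp only [commutatorElement_def]; group
        _ = ⁅u, y⁆ * x * (y * x⁻¹) := by rw [e3]; simp only [commutatorElement_def]; group
        _ = _ := by rw [e2]; simp only [commutatorElement_def]; group
    have e5 : ((x * u)⁻¹ * (u * x)) * y = y * ((x * u)⁻¹ * (u * x)) := by
      calc ((x * u)⁻¹ * (u * x)) * y = (x * u)⁻¹ * (u * x * y * (u * x)⁻¹) * (u * x) := by group
        _ = _ := by rw [e4]; group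
    have e6 : ⁅u, x⁆ * ((x * u) * y * (x * u)⁻¹) = ((x * u) * y * (x * u)⁻¹) * ⁅u, x⁆ := by
      calc ⁅u, x⁆ * ((x * u) * y * (x * u)⁻¹)
          = (x * u) * (((x * u)⁻¹ * (u * x)) * y) * (x * u)⁻¹ := by
            simp only [commutatorElement_def]; group
        _ = _ := by rw [e5]; simp only [commutatorElement_def]; group
    have e7 := hXc (h.lt.le hk) _ (hcomm _ (H.mul_mem hx hu))
    have e8 : (x * u) * y * (x * u)⁻¹ = ⁅x * u, y⁆ * y := by
      simp only [commutatorElement_def]; group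
    rw [e8, ← mul_assoc, ← e7, mul_assoc, mul_assoc] at e6
    exact mul_left_cancel e6
  have hcT : ∀ u ∈ H, ⁅u⁻¹, c⁆ ∈ T := by
    intro u hu
    refine Subgroup.mem_centralizer_singleton_iff.2 ?_
    have e1 : ⁅c, ⁅u, y⁆⁆ = 1 := h0 c hc0 _ (hcomm u hu)
    rw [commutatorElement_eq_one_iff_mul_comm] at e1
    have hv : c * u * c⁻¹ ∈ H := Subgroup.Normal.conj_mem inferInstance u hu c
    have e2 := (h1 c hc1 y hy).2 _ hv
    have e3 : ⁅c * u * c⁻¹, y⁆ = ⁅u, y⁆ := by
      calc ⁅c * u * c⁻¹, y⁆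
          = ⁅c, y⁆⁻¹ * (⁅c, y⁆ * (c * u * c⁻¹)) * y * (c * u * c⁻¹)⁻¹ * y⁻¹ := by
            simp only [commutatorElement_def]; group
        _ = ⁅c, y⁆⁻¹ * (c * ⁅u, y⁆) * c⁻¹ * ⁅c, y⁆ := by
            rw [← e2]; simp only [commutatorElement_def]; group
        _ = ⁅c, y⁆⁻¹ * (⁅u, y⁆ * ⁅c, y⁆) := by rw [e1]; group
        _ = _ := by
            rw [(h1 c hc1 y hy).2 _ (h.lt.le (hXK (hcomm u hu)))]; group
    simp only [commutatorElement_def] at e3 ⊢
    calc u⁻¹ * c * u⁻¹⁻¹ * c⁻¹ * y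
        = u⁻¹ * (c * u * c⁻¹ * y * (c * u * c⁻¹)⁻¹ * y⁻¹) * y * (c * u * c⁻¹) := by group
      _ = _ := by rw [e3]; group
  refine hyZ ⟨hyK, fun u hu => ?_⟩
  set π := QuotientGroup.mk' K with hπ
  haveI : (H.map π).Normal := Subgroup.Normal.map inferInstance _ (QuotientGroup.mk'_surjective K)
  obtain ⟨_, ⟨n, hn, rfl⟩, e⟩ := exists_conj_eq_mul_of_fixedPointFree (N := H.map π)
    (Subgroup.le_normalizer_of_normal (Subgroup.mem_top (π c))) (by
      rintro _ ⟨w, hw, rfl⟩ e
      refine (QuotientGroup.eq_one_iff w).2 (h.fpf c hcH w hw ?_)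
      rw [← QuotientGroup.eq_one_iff, ← QuotientGroup.mk'_apply, map_commutatorElement,
        commutatorElement_eq_one_iff_mul_comm]
      exact e) (m := π u) ⟨u, hu, rfl⟩
  have h2 : ⁅n, c⁆⁻¹ * u ∈ K := by
    rw [← QuotientGroup.eq_one_iff, ← QuotientGroup.mk'_apply, map_mul, map_inv,
      map_commutatorElement, commutatorElement_def, ← hπ, e]
    group
  have h3 := T.mul_mem (hcT n⁻¹ (H.inv_mem hn)) (hKT h2)
  rw [inv_inv, mul_inv_cancel_left] at h3
  exact Subgroup.mem_centralizer_singleton_iff.1 h3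

theorem class_two (h : Agl p G K) : K ≤ Subgroup.centralizer (commutator G : Set G) := by
  haveI := h.normal
  rw [← Subgroup.commutator_eq_bot_iff_le_centralizer]
  by_contra hn
  obtain ⟨W, hW, -, hWL, hmax⟩ := exists_chiefFactor_below (N := ⊥) inferInstance
    (inferInstance : (⁅K, commutator G⁆ : Subgroup G).Normal) (bot_lt_iff_ne_bot.2 hn)
  refine (h.quotient W (hWL.le.trans (Subgroup.commutator_le_left _ _))).false_of_minNormal ?_
  rw [commutator_quot, ← Subgroup.map_commutator]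
  exact isMinNormal_map_mk_of_chief inferInstance hWL hmax

theorem pow_mem (h : Agl p G K) {u : G} (hu : u ∈ commutator G) : u ^ p ∈ K := by
  haveI := h.normal
  have hM := isMinNormal_map_mk_of_chief inferInstance h.lt h.toOneCl.chief
  have := (hM.isElementaryAbelian_of_isPGroup (h.pg.map _)).2 _ ⟨u, hu, rfl⟩
  rwa [← map_pow, QuotientGroup.mk'_apply, QuotientGroup.eq_one_iff] at this

theorem pow_eq_one_of_mem (h : Agl p G K) {k : G} (hk : k ∈ K) : k ^ p = 1 := by
  obtain ⟨x, hx, hxK⟩ := SetLike.exists_of_lt h.lt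
  obtain ⟨u, hu, rfl⟩ := h.cam hx hxK hk
  have h1 : Commute u ⁅u, x⁆ := h.class_two hk u hu
  have h2 : ∀ n : ℕ, u ^ n * x = ⁅u, x⁆ ^ n * x * u ^ n := by
    intro n
    induction n with
    | zero => simp
    | succ n ih =>
      calc u ^ (n + 1) * x = u * (u ^ n * x) := by rw [pow_succ', mul_assoc]
        _ = (u * ⁅u, x⁆ ^ n) * x * u ^ n := by rw [ih]; group
        _ = ⁅u, x⁆ ^ n * (⁅u, x⁆ * x * u) * u ^ n := by
          rw [(h1.pow_right n).eq]; simp only [commutatorElement_def]; group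
        _ = _ := by rw [pow_succ, pow_succ']; group
  have h3 := h2 p
  rw [← h.class_two (h.pow_mem hu) x hx, mul_assoc] at h3
  exact (mul_eq_right.1 h3.symm)

theorem pow_eq_one (h : Agl p G K) {x : G} (hx : x ∈ commutator G) (hxK : x ∉ K) :
    x ^ p = 1 ∨ (p = 2 ∧ x ^ 4 = 1) := by
  haveI := h.normal
  have hp : p.Prime := Fact.out
  by_cases hp2 : p = 2
  · subst hp2
    exact Or.inr ⟨rfl, by
      rw [show 4 = 2 * 2 from rfl, pow_mul, h.pow_eq_one_of_mem (h.pow_mem hx)]⟩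
  left
  have h1 := h.card_lt le_rfl h.class_two
  obtain ⟨a, b, hab, e⟩ : ∃ a b : commutator G ⧸ K.subgroupOf (commutator G), a ≠ b ∧
      (a.out : G) ^ p = (b.out : G) ^ p := by
    by_contra hn
    push Not at hn
    refine absurd (Nat.card_le_card_of_injective
      (fun a : commutator G ⧸ K.subgroupOf (commutator G) =>
        (⟨(a.out : G) ^ p, h.pow_mem a.out.2⟩ : K)) fun a b e => ?_) (not_le.2 h1)
    by_contra hne
    exact hn a b hne (congrArg Subtype.val e)
  have hu : (a.out : G)⁻¹ ∈ commutator G := inv_mem a.out.2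
  have hv : (b.out : G) ∈ commutator G := b.out.2
  have h2 : (a.out : G)⁻¹ * b.out ∉ K := fun e' => hab (by
    rw [← QuotientGroup.out_eq' a, ← QuotientGroup.out_eq' b, QuotientGroup.eq]
    exact e')
  have hc := h.comm hv hu
  have h3 := mul_pow_of_central_commutator (a := (a.out : G)⁻¹) (b := b.out)
    (c := ⁅(b.out : G), (a.out : G)⁻¹⁆) (by simp only [commutatorElement_def]; group)
    (h.class_two hc _ hu).symm (h.class_two hc _ hv).symm p
  obtain ⟨m, hm⟩ : p ∣ p.choose 2 :=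
    hp.dvd_choose_self two_ne_zero (lt_of_le_of_ne hp.two_le (Ne.symm hp2))
  rw [hm, pow_mul, h.pow_eq_one_of_mem hc, one_pow, one_mul, inv_pow, e, inv_mul_cancel] at h3
  obtain ⟨c, rfl⟩ := isConj_iff.1 (h.cj _ (mul_mem hu hv) h2 x hx hxK)
  rw [conj_pow, h3, mul_one, mul_inv_cancel]

end Agl

theorem OneCl.isSolvable {K : Subgroup G} (h : OneCl G K) : Group.IsSolvable G := by
  haveI := h.normal
  obtain ⟨p, hp, hpe⟩ := h.exists_prime
  haveI := Fact.mk hp
  set M := pPrimeCore p G ⊓ K with hM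
  have hMp : ¬ p ∣ Nat.card M := fun e =>
    not_dvd_card_pPrimeCore p (e.trans (Subgroup.card_dvd_of_le inf_le_left))
  have hq := h.quotient M inf_le_right
  set π := QuotientGroup.mk' M with hπ
  have hK : IsPGroup p (K.map π) := by
    rintro ⟨_, k, hk, rfl⟩
    have h1 : pRegPart p k ∈ M := by
      rw [hM, ← map_subtype_pPrimeCore_of_normal]
      exact ⟨⟨_, pRegPart_mem p hk⟩, hasNormalPComplement_iff_forall_mem_pPrimeCore.1
        (h.hasNormalPComplement hpe) _ (by
          rw [← Subgroup.orderOf_coe]; exact not_dvd_orderOf_pRegPart k), rfl⟩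
    have h2 : pRegPart p (π k) = 1 := by
      rw [← map_pRegPart]; exact (QuotientGroup.eq_one_iff _).2 h1
    obtain ⟨j, hj⟩ := pRegPart_eq_one_iff.1 h2
    exact ⟨j, Subtype.ext (by
      show π k ^ p ^ j = 1
      rw [← hj, pow_orderOf_eq_one])⟩
  have hpe' : ∀ x ∈ commutator (G ⧸ M), x ∉ K.map π → ∃ k, orderOf x = p ^ k := by
    rw [commutator_quot]
    rintro _ ⟨x, hx, rfl⟩ hxK
    obtain ⟨k, hk⟩ := hpe x hx fun e => hxK ⟨x, e, rfl⟩
    obtain ⟨j, -, hj⟩ := (Nat.dvd_prime_pow hp).1 (hk ▸ orderOf_map_dvd π x)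
    exact ⟨j, hj⟩
  have hH : IsPGroup p (commutator (G ⧸ M)) := by
    rintro ⟨x, hx⟩
    by_cases hxK : x ∈ K.map π
    · obtain ⟨k, hk⟩ := hK ⟨x, hxK⟩
      exact ⟨k, Subtype.ext (congrArg Subtype.val hk :)⟩
    · obtain ⟨k, hk⟩ := hpe' x hx hxK
      exact ⟨k, Subtype.ext (by
        show x ^ p ^ k = 1
        rw [← hk, pow_orderOf_eq_one])⟩
  obtain ⟨x, hx, hxK⟩ := SetLike.exists_of_lt h.lt
  have hx' : π x ∈ commutator (G ⧸ M) := by rw [commutator_quot]; exact ⟨x, hx, rfl⟩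
  have hxK' : π x ∉ K.map π := fun e => hxK ((mk_mem_map_mk_iff inf_le_right).1 e)
  have h1 : π x ^ p = 1 ∨ (p = 2 ∧ π x ^ 4 = 1) := by
    rcases hq.dichotomy hpe' with e | e
    · have hp2 : p = 2 := by
        by_contra hne
        obtain ⟨k, hk⟩ := hpe' _ hx' hxK'
        obtain ⟨m, hm⟩ := exists_pow_eq_self_of_coprime (x := π x) (n := 2)
          (hk ▸ Nat.Coprime.pow_right k ((Nat.coprime_primes Nat.prime_two hp).2 (Ne.symm hne)))
        refine hxK' (hm ▸ Subgroup.pow_mem _ ?_ m)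
        rw [pow_two]
        exact hq.sq_mem_of_central e hx'
      subst hp2
      exact Or.inr ⟨rfl, hq.pow_four_of_central hK e hx'⟩
    · exact Agl.pow_eq_one ⟨hq, hH, e⟩ hx' hxK'
  have hxp : IsPGroup p (Subgroup.zpowers x) := isPGroup_zpowers_iff.2 (hpe x hx hxK)
  have h2 : ∀ n : ℕ, π x ^ n = 1 → x ^ n = 1 := by
    intro n hn
    have : x ^ n ∈ Subgroup.zpowers x ⊓ M :=
      ⟨Subgroup.pow_mem _ (Subgroup.mem_zpowers x) n, (QuotientGroup.eq_one_iff _).1 hn⟩
    rwa [inf_eq_bot_of_coprime_card (coprime_card_of_isPGroup hxp hMp), Subgroup.mem_bot] at this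
  have hfpf : ∀ m ∈ M, x * m = m * x → m = 1 := by
    intro m hm e
    have h3 := (pPart_pRegPart_unique (p := p) e (hpe x hx hxK)
      (not_dvd_orderOf_of_mem_pPrimeCore hm.1)).2
    rw [← h3, pRegPart_eq_one_iff]
    exact hpe _ (mul_mem hx (h.lt.le hm.2)) fun e => hxK ((K.mul_mem_cancel_right hm.2).1 e)
  have hxM : x ∈ Subgroup.normalizer (M : Set G) :=
    Subgroup.le_normalizer_of_normal (Subgroup.mem_top x)
  have hMs : Group.IsSolvable M := by
    rcases h1 with e | ⟨rfl, e⟩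
    · haveI := isNilpotent_of_fpf_prime hp hxM (h2 _ e) hfpf
      infer_instance
    · exact isSolvable_of_fpf_four hxM (h2 _ e) hMp hfpf
  have h3 : Group.IsSolvable (G ⧸ M) := by
    haveI := isSolvable_of_isPGroup hH
    exact solvable_of_ker_le_range (commutator (G ⧸ M)).subtype Abelianization.of
      (by rw [Subgroup.range_subtype]; exact (QuotientGroup.ker_mk' _).le)
  exact solvable_of_ker_le_range M.subtype π (by rw [Subgroup.range_subtype, QuotientGroup.ker_mk'])


end Cfsg
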