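import Cfsg.Agent.Grp.GL2Sylow

/-! Sylow `2`-subgroups of `SLₙ(q)`, `q` odd. -/

set_option autoImplicit false

namespace Cfsg

open scoped Pointwise commutatorElement Matrix
open Equiv Matrix

theorem abExp_inf_of_le_sup {G : Type*} [Group G] {n : ℕ} {W N Y : Subgroup G} [N.Normal]
    (hY : Y ≤ W) (h : W ≤ abExpSub n (W ⊓ N) ⊔ Y)
    (hy : ∀ y ∈ Y, y ∈ N → y ∈ abExpSub n (W ⊓ N)) : AbExp n (W ⊓ N) := by
  have h1 : Y ≤ Subgroup.normalizer (abExpSub n (W ⊓ N) : Set G) :=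
    ((le_inf (hY.trans Subgroup.le_normalizer) Subgroup.le_normalizer_of_normal).trans
      Subgroup.inf_normalizer_le_normalizer_inf).trans (normalizer_le_normalizer_abExpSub _ _)
  rw [abExp_iff_le]
  intro x hx
  obtain ⟨m, hm, y, hyY, rfl⟩ := (mem_sup_of_le_normalizer h1).1 (h hx.1)
  refine Subgroup.mul_mem _ hm (hy y hyY ?_)
  exact (N.mul_mem_cancel_left (abExpSub_le _ _ hm).2).1 hx.2

theorem sylow_perm_transitive {p : ℕ} [Fact p.Prime] {β : Type*} [Finite β] {j : ℕ}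
    (h : Nat.card β = p ^ j) (T : Sylow p (Perm β)) (a b : β) :
    ∃ σ ∈ (T : Subgroup (Perm β)), σ a = b := by
  classical
  have h1 : (T : Subgroup (Perm β)).index.Coprime (MulAction.stabilizer (Perm β) a).index := by
    rw [MulAction.index_stabilizer_of_transitive, h]
    exact Nat.Coprime.pow_right _
      ((Nat.Prime.coprime_iff_not_dvd Fact.out).2 T.not_dvd_index).symm
  obtain ⟨σ, hσ, k, hk, e⟩ := exists_mul_eq_of_coprime_index h1 (Equiv.swap a b)
  refine ⟨σ, hσ, ?_⟩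
  have := congrArg (fun τ : Perm β => τ a) e
  simp only [Perm.mul_apply, Equiv.swap_apply_left] at this
  rwa [show k a = a from hk] at this

variable {F : Type*} [Field F] [Fintype F] {β γ : Type*} [Fintype β] [Fintype γ] [DecidableEq β]
  [DecidableEq γ]

theorem exists_sylow_GL_eq (hF : Odd (Fintype.card F)) (hγ : Fintype.card γ ≤ 1)
    (R : Sylow 2 (GL (Fin 2) F)) (E : Sylow 2 Fˣ) (T : Sylow 2 (Perm β)) :
    ∃ S : Sylow 2 (GL ((Fin 2 × β) ⊕ γ) F), (S : Subgroup _) =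
      wrBase (R : Subgroup (GL (Fin 2) F)) (E : Subgroup Fˣ) ⊔
        (T : Subgroup (Perm β)).map (blockGL F γ) := by
  refine ⟨Sylow.ofCard _ ?_, rfl⟩
  have e : (Fin 2 × β) ⊕ γ ≃ Fin (2 * Fintype.card β + Fintype.card γ) :=
    Fintype.equivFinOfCardEq (by simp)
  rw [(wrBase_sup _ _ _).2, card_sylow_GL_two hF, card_sylow_units, T.card_eq_multiplicity,
    Nat.card_perm, Nat.card_congr (reindexGL F e).toEquiv, ← pow_mul, ← pow_mul, ← pow_add,
    ← pow_add, Nat.card_eq_fintype_card]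
  congr 1
  rcases Nat.le_one_iff_eq_zero_or_eq_one.1 hγ with h | h
  · rw [h, add_zero, factorization_card_GL_even hF]; ring
  · rw [h, factorization_card_GL_succ hF, factorization_card_GL_even hF,
      factorization_two_pow_sub_one_odd hF Fintype.one_lt_card]
    ring

theorem map_atBlock_le_abExpSub (hF : Odd (Fintype.card F)) (R : Sylow 2 (GL (Fin 2) F))
    (E : Subgroup Fˣ) {W : Subgroup (GL ((Fin 2 × β) ⊕ γ) F)}
    (hW : wrBase (R : Subgroup (GL (Fin 2) F)) E ≤ W) (b : β) {r : GL (Fin 2) F}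
    (hr : r ∈ (R : Subgroup (GL (Fin 2) F))) (hd : GeneralLinearGroup.det r = 1) :
    atBlock γ b r ∈ abExpSub 2 (W ⊓ GeneralLinearGroup.det.ker) := by
  refine ((abExp_sylow_inf_ker_det hF R).map (atBlock γ b)).le_abExpSub ?_
    (Subgroup.mem_map_of_mem _ ⟨hr, hd⟩)
  rintro _ ⟨x, hx, rfl⟩
  exact ⟨hW (atBlock_mem_wrBase b hx.1), (det_atBlock b x).trans hx.2⟩

theorem map_blockGL_le_abExpSub (T : Sylow 2 (Perm β)) {W N : Subgroup (GL ((Fin 2 × β) ⊕ γ) F)}
    (hW : (T : Subgroup (Perm β)).map (blockGL F γ) ≤ W) (hN : ∀ σ, blockGL F γ σ ∈ N) :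
    (T : Subgroup (Perm β)).map (blockGL F γ) ≤ abExpSub 2 (W ⊓ N) := by
  refine ((sylow_perm_genByOrd 2 T).abExp.map _).le_abExpSub (le_inf hW ?_)
  rintro _ ⟨σ, -, rfl⟩
  exact hN σ

theorem sq_eq_one_of_pow_two_pow (hq : 4 ∣ Fintype.card F + 1) {x : Fˣ} {k : ℕ}
    (h : x ^ 2 ^ k = 1) : x = 1 ∨ x = -1 := by
  classical
  obtain ⟨j, -, hj⟩ := (Nat.dvd_prime_pow Nat.prime_two).1 (orderOf_dvd_of_pow_eq_one h)
  have h1 : orderOf x ∣ Fintype.card F - 1 := by
    rw [← Fintype.card_units]; exact orderOf_dvd_card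
  have h2 : j ≤ 1 := by
    by_contra h3
    have h4 : 4 ∣ Fintype.card F - 1 := by
      refine dvd_trans ?_ h1
      rw [hj]
      exact pow_dvd_pow 2 (show 2 ≤ j by omega)
    have := Fintype.card_pos (α := F)
    omega
  have h3 : x ^ 2 = 1 := orderOf_dvd_iff_pow_eq_one.1 (by rw [hj]; exact pow_dvd_pow 2 h2)
  have h4 : (x : F) * x = 1 := by rw [← sq]; exact congrArg Units.val h3
  rcases mul_self_eq_one_iff.1 h4 with h5 | h5
  · left; exact Units.ext h5
  · right; exact Units.ext h5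

/-- the case `q ≡ 3 (mod 4)` -/
theorem exists_sylow_abExp_GL_three (hF : Odd (Fintype.card F)) (hq : 4 ∣ Fintype.card F + 1)
    (hγ : Fintype.card γ ≤ 1) : ∃ S : Sylow 2 (GL ((Fin 2 × β) ⊕ γ) F),
      AbExp 2 ((S : Subgroup (GL ((Fin 2 × β) ⊕ γ) F)) ⊓ GeneralLinearGroup.det.ker) := by
  have hsd : (!![1, 0; 0, -1] : Matrix (Fin 2) (Fin 2) F).det = -1 := by simp [Matrix.det_fin_two]
  let s : GL (Fin 2) F := GeneralLinearGroup.mkOfDetNeZero _ (hsd ▸ neg_ne_zero.2 one_ne_zero)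
  have hs2 : s ^ 2 = 1 := by
    apply Units.ext
    rw [sq]
    change !![1, 0; 0, -1] * !![1, 0; 0, -1] = (1 : Matrix (Fin 2) (Fin 2) F)
    ext a b
    fin_cases a <;> fin_cases b <;> simp
  have hsdet : GeneralLinearGroup.det s = -1 := Units.ext hsd
  have hsp : IsPGroup 2 (Subgroup.zpowers s) := by
    refine IsPGroup.of_card_dvd_pow (n := 1) ?_
    rw [Nat.card_zpowers, pow_one]
    exact orderOf_dvd_of_pow_eq_one hs2
  obtain ⟨R, hR⟩ := hsp.exists_le_sylow
  let E : Sylow 2 Fˣ := default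
  let T : Sylow 2 (Perm β) := default
  obtain ⟨S, hS⟩ := exists_sylow_GL_eq hF hγ R E T
  refine ⟨S, ?_⟩
  rw [hS]
  have hY : wrBase (β := β) (γ := γ) (Subgroup.zpowers s) (E : Subgroup Fˣ) ≤
      wrBase (R : Subgroup (GL (Fin 2) F)) (E : Subgroup Fˣ) :=
    wrBase_le (fun b r hr => atBlock_mem_wrBase b (hR hr)) fun c r hr => atCoord_mem_wrBase c hr
  refine abExp_inf_of_le_sup (hY.trans le_sup_left) (sup_le (wrBase_le (fun b r hr => ?_)
    fun c r hr => Subgroup.mem_sup_right (atCoord_mem_wrBase c hr))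
    ((map_blockGL_le_abExpSub T le_sup_right det_blockGL).trans le_sup_left)) fun y hy hyN => ?_
  · obtain ⟨k, hk⟩ := R.isPGroup' ⟨r, hr⟩
    have h1 : r ^ 2 ^ k = 1 := congrArg Subtype.val hk
    have h2 := congrArg GeneralLinearGroup.det h1
    rw [map_pow, map_one] at h2
    rcases sq_eq_one_of_pow_two_pow hq h2 with h3 | h3
    · exact Subgroup.mem_sup_left (map_atBlock_le_abExpSub hF R _ le_sup_left b hr h3)
    · have h4 : r = r * s * s := by rw [mul_assoc, ← sq, hs2, mul_one]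
      rw [h4, map_mul]
      refine Subgroup.mul_mem _ (Subgroup.mem_sup_left (map_atBlock_le_abExpSub hF R _ le_sup_left b
        (Subgroup.mul_mem _ hr (hR (Subgroup.mem_zpowers s))) ?_))
        (Subgroup.mem_sup_right (atBlock_mem_wrBase b (Subgroup.mem_zpowers s)))
      rw [map_mul, h3, hsdet]; simp
  · refine mem_abExpSub_of_pow_eq_one ⟨Subgroup.mem_sup_left (hY hy), hyN⟩ ?_
    obtain ⟨f, e, hf, he, rfl⟩ := mem_wrBase.1 hy
    rw [← map_pow]
    have : (f, e) ^ 2 = 1 := by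
      refine Prod.ext (funext fun b => ?_) (funext fun c => ?_)
      · obtain ⟨k, hk⟩ := hf b
        change f b ^ 2 = 1
        rw [← hk, ← zpow_natCast, ← _root_.zpow_mul, mul_comm, _root_.zpow_mul, zpow_natCast, hs2,
          _root_.one_zpow]
      · obtain ⟨k, hk⟩ := E.isPGroup' ⟨e c, he c⟩
        change e c ^ 2 = 1
        rcases sq_eq_one_of_pow_two_pow hq (congrArg Subtype.val hk) with h | h <;>
          rw [show e c = _ from h] <;> simp
    rw [this, map_one]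

/-- the case of a power of two number of blocks -/
theorem exists_sylow_abExp_GL_pow (hF : Odd (Fintype.card F)) {j : ℕ} (hβ : Nat.card β = 2 ^ j)
    [IsEmpty γ] : ∃ S : Sylow 2 (GL ((Fin 2 × β) ⊕ γ) F),
      AbExp 2 ((S : Subgroup (GL ((Fin 2 × β) ⊕ γ) F)) ⊓ GeneralLinearGroup.det.ker) := by
  let R : Sylow 2 (GL (Fin 2) F) := default
  let E : Sylow 2 Fˣ := default
  let T : Sylow 2 (Perm β) := default
  obtain ⟨S, hS⟩ := exists_sylow_GL_eq (γ := γ) hF (by simp) R E T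
  refine ⟨S, ?_⟩
  rw [hS]
  set W := wrBase (R : Subgroup (GL (Fin 2) F)) (E : Subgroup Fˣ) ⊔
    (T : Subgroup (Perm β)).map (blockGL F γ) with hW
  set M := abExpSub 2 (W ⊓ GeneralLinearGroup.det.ker) with hM
  obtain ⟨b₀⟩ : Nonempty β := (Nat.card_pos_iff.1 (by rw [hβ]; positivity)).1
  let L : Subgroup (Perm β) :=
    { carrier := {σ | ∀ b, ∀ r ∈ (R : Subgroup (GL (Fin 2) F)),
        atBlock γ (σ b) r * (atBlock γ b r)⁻¹ ∈ M}
      one_mem' := fun b r _ => by simp
      mul_mem' := fun {σ τ} hσ hτ b r hr => by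
        have := M.mul_mem (hσ (τ b) r hr) (hτ b r hr)
        simpa [mul_assoc] using this
      inv_mem' := fun {σ} hσ b r hr => by
        have := M.inv_mem (hσ (σ⁻¹ b) r hr)
        simpa using this }
  have hTL : (T : Subgroup (Perm β)) ≤ L := by
    refine (sylow_perm_genByOrd 2 T).trans ((Subgroup.closure_le _).2 ?_)
    rintro σ ⟨hσ, hσ2⟩ b r hr
    refine mem_abExpSub_of_conj_eq_inv (g := blockGL F γ σ) ⟨Subgroup.mem_sup_left
      (Subgroup.mul_mem _ (atBlock_mem_wrBase _ hr) (Subgroup.inv_mem _ (atBlock_mem_wrBase _ hr))),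
      ?_⟩ ⟨Subgroup.mem_sup_right (Subgroup.mem_map_of_mem _ hσ), det_blockGL σ⟩ ?_
    · change GeneralLinearGroup.det _ = 1
      rw [map_mul, map_inv, det_atBlock, det_atBlock, mul_inv_cancel]
    · have h1 : σ (σ b) = b := by rw [← Perm.mul_apply, ← sq, hσ2]; rfl
      have h2 := blockGL_mul_atBlock (γ := γ) σ (σ b) r
      have h3 := blockGL_mul_atBlock (γ := γ) σ b r
      rw [h1] at h2
      calc _ = (blockGL F γ σ * atBlock γ (σ b) r * (blockGL F γ σ)⁻¹) *
            (blockGL F γ σ * atBlock γ b r * (blockGL F γ σ)⁻¹)⁻¹ := by group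
        _ = _ := by rw [h2, h3]; group
  refine abExp_inf_of_le_sup (Y := (R : Subgroup (GL (Fin 2) F)).map (atBlock γ b₀)) ?_
    (sup_le (wrBase_le (fun b r hr => ?_) fun c => isEmptyElim c)
    ((map_blockGL_le_abExpSub T le_sup_right det_blockGL).trans le_sup_left)) ?_
  · rintro _ ⟨r, hr, rfl⟩
    exact Subgroup.mem_sup_left (atBlock_mem_wrBase _ hr)
  · obtain ⟨σ, hσ, rfl⟩ := sylow_perm_transitive hβ T b₀ b
    rw [← inv_mul_cancel_right (atBlock γ (σ b₀) r) (atBlock γ b₀ r)]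
    exact Subgroup.mul_mem _ (Subgroup.mem_sup_left (hTL hσ b₀ r hr))
      (Subgroup.mem_sup_right (Subgroup.mem_map_of_mem _ hr))
  · rintro _ ⟨r, hr, rfl⟩ hd
    exact map_atBlock_le_abExpSub hF R _ le_sup_left b₀ hr ((det_atBlock b₀ r).symm.trans hd)

omit [Fintype F] in
theorem sylow_abExp_SL_of_GL [Finite F] {ι κ : Type*} [Fintype ι] [DecidableEq ι] [Fintype κ]
    [DecidableEq κ] (e : κ ≃ ι) (h : ∃ S : Sylow 2 (GL ι F),
      AbExp 2 ((S : Subgroup (GL ι F)) ⊓ GeneralLinearGroup.det.ker))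
    (P : Sylow 2 (Matrix.SpecialLinearGroup κ F)) :
    AbExp 2 (P : Subgroup (Matrix.SpecialLinearGroup κ F)) := by
  obtain ⟨S, hS⟩ := h
  let f := (reindexGL F e).toMonoidHom.comp Matrix.SpecialLinearGroup.toGL
  have hf : f.range = GeneralLinearGroup.det.ker := by
    ext x
    constructor
    · rintro ⟨y, rfl⟩
      exact (det_reindexGL e _).trans (Units.ext y.2)
    · intro hx
      obtain ⟨y, rfl⟩ := (reindexGL F e).surjective x
      have h1 : GeneralLinearGroup.det y = 1 := (det_reindexGL e y).symm.trans hx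
      exact ⟨⟨y, congrArg Units.val h1⟩, congrArg (reindexGL F e) (Units.ext rfl)⟩
  have : f.range.Normal := by rw [hf]; infer_instance
  refine sylow_abExp_of_injective f ((reindexGL F e).injective.comp
    Matrix.SpecialLinearGroup.toGL_injective) S ?_ P
  rwa [hf]

end Cfsg
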