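import Cfsg.Agent.Grp.QuadBound
import Cfsg.Agent.Grp.SLSylow
import Cfsg.Prelude.Def_Classical

/-! Sylow `2`-subgroups of orthogonal groups in odd characteristic. -/

set_option autoImplicit false

namespace Cfsg

open scoped Pointwise commutatorElement Matrix Classical
open Equiv Matrix

theorem abExp_inf_of_le_sup' {G : Type*} [Group G] {n : ℕ} {W N Y : Subgroup G}
    (hN : W ≤ Subgroup.normalizer (N : Set G)) (hY : Y ≤ W) (h : W ≤ abExpSub n (W ⊓ N) ⊔ Y)
    (hy : ∀ y ∈ Y, y ∈ N → y ∈ abExpSub n (W ⊓ N)) : AbExp n (W ⊓ N) := by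
  have h1 : Y ≤ Subgroup.normalizer (abExpSub n (W ⊓ N) : Set G) :=
    ((le_inf (hY.trans Subgroup.le_normalizer) (hY.trans hN)).trans
      Subgroup.inf_normalizer_le_normalizer_inf).trans (normalizer_le_normalizer_abExpSub _ _)
  rw [abExp_iff_le]
  intro x hx
  obtain ⟨m, hm, y, hyY, rfl⟩ := (mem_sup_of_le_normalizer h1).1 (h hx.1)
  refine Subgroup.mul_mem _ hm (hy y hyY ?_)
  exact (N.mul_mem_cancel_left (abExpSub_le _ _ hm).2).1 hx.2

variable {F : Type*} [Field F] [Fintype F]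

theorem hasType_of_linearEquiv (hF : Odd (Fintype.card F)) {V : Type*} [AddCommGroup V]
    [Module F V] [Fintype V] {B : LinearMap.BilinForm F V} (hB : NondegOn B ⊤) {ι : Type*}
    [Fintype ι] (d : ι → Fˣ) (L : (ι → F) ≃ₗ[F] V) (hL : ∀ x, B (L x) (L x) = ∑ i, d i * x i ^ 2) :
    HasType B ⊤ (Fintype.card ι) (∏ i, qChi F (d i)) := by
  refine ⟨?_, hB, ?_, fun t ht => ?_⟩
  · rw [Nat.card_congr (Submodule.topEquiv (R := F) (M := V)).toEquiv, ← Nat.card_congr L.toEquiv,
      Nat.card_fun, Nat.card_eq_fintype_card, Nat.card_eq_fintype_card]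
  · refine Finset.prod_induction _ (fun z : ℤ => z = 1 ∨ z = -1) ?_ (Or.inl rfl)
      fun i _ => qChi_dichotomy (d i).ne_zero
    rintro a b (rfl | rfl) (rfl | rfl) <;> simp
  · rw [qGam, ← (L.trans (Submodule.topEquiv (R := F) (M := V)).symm).toEquiv.sum_comp]
    have h1 : ∀ x : ι → F, qPsi F (t * B (L x) (L x)) = ∏ i, qPsi F (t * d i * x i ^ 2) := by
      intro x
      rw [hL, Finset.mul_sum]
      simp only [← mul_assoc]
      induction (Finset.univ : Finset ι) using Finset.induction_on with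
      | empty => simp
      | insert a s ha ih => rw [Finset.sum_insert ha, Finset.prod_insert ha,
          AddChar.map_add_eq_mul, ih]
    refine (Finset.sum_congr rfl fun x _ => h1 x).trans ?_
    rw [← Fintype.piFinset_univ, ← Finset.prod_univ_sum (fun _ => Finset.univ)
      fun i x => qPsi F (t * d i * x ^ 2)]
    rw [Finset.prod_congr rfl fun i _ => sum_qPsi_sq hF (mul_ne_zero ht (d i).ne_zero)]
    simp only [qChi_mul, Int.cast_mul, Finset.prod_mul_distrib, Finset.prod_const,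
      Finset.card_univ, Int.cast_prod]

omit [Fintype F] in
theorem mem_isometryGroup {ι : Type} [Fintype ι] [DecidableEq ι] {Q : (ι → F) → F}
    {g : GL ι F} : g ∈ isometryGroup F Q ↔ ∀ v, Q (g • v) = Q v :=
  ⟨fun h v => h v v, fun h v _ => h v⟩

omit [Fintype F] in
theorem o2_entries (h2 : (2 : F) ≠ 0) {x : GL (Fin 2) F}
    (hx : x ∈ isometryGroup F fun v : Fin 2 → F => v 0 ^ 2 + v 1 ^ 2) :
    x 0 0 ^ 2 + x 1 0 ^ 2 = 1 ∧ x 1 1 = x.1.det * x 0 0 ∧ x 0 1 = -x.1.det * x 1 0 ∧
      x.1.det ^ 2 = 1 := by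
  have h0 := mem_isometryGroup.1 hx ![1, 0]
  have h1 := mem_isometryGroup.1 hx ![0, 1]
  have h3 := mem_isometryGroup.1 hx ![1, 1]
  simp [Units.smul_def, Matrix.mulVec, dotProduct, Fin.sum_univ_two] at h0 h1 h3
  have h4 : x 0 0 * x 0 1 + x 1 0 * x 1 1 = 0 := by
    refine (mul_eq_zero.1 ?_).resolve_left h2
    linear_combination h3 - h0 - h1
  rw [Matrix.det_fin_two]
  refine ⟨h0, ?_, ?_, ?_⟩
  · linear_combination -x 1 1 * h0 + x 1 0 * h4
  · linear_combination -x 0 1 * h0 + x 0 0 * h4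
  · linear_combination (x 0 1 ^ 2 + x 1 1 ^ 2) * h0 + h1 - (x 0 0 * x 0 1 + x 1 0 * x 1 1) * h4

/-- the reflection `diag (-1, 1)` -/
noncomputable def refl2 (F : Type*) [Field F] : GL (Fin 2) F :=
  GeneralLinearGroup.mkOfDetNeZero !![-1, 0; 0, 1] (by simp [Matrix.det_fin_two])

omit [Fintype F] in
theorem refl2_mul_self : refl2 F * refl2 F = 1 := by
  apply Units.ext
  change !![-1, 0; 0, 1] * !![-1, 0; 0, 1] = (1 : Matrix (Fin 2) (Fin 2) F)
  ext a b
  fin_cases a <;> fin_cases b <;> simp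

theorem exists_o2_data (hF : Odd (Fintype.card F)) :
    ∃ D : Subgroup (GL (Fin 2) F), IsPGroup 2 D ∧ 2 ^ (qVal F + 1) ∣ Nat.card D ∧ refl2 F ∈ D ∧
      D ≤ isometryGroup F (fun v : Fin 2 → F => v 0 ^ 2 + v 1 ^ 2) ∧
      ∀ x ∈ D, x ^ 2 = 1 ∨ refl2 F * x * (refl2 F)⁻¹ = x⁻¹ := by
  have h2 := two_ne_zero_of_odd_card hF
  set O := isometryGroup F fun v : Fin 2 → F => v 0 ^ 2 + v 1 ^ 2 with hO
  have ha : refl2 F ∈ O := mem_isometryGroup.2 fun v => by
    simp [refl2, Units.smul_def, Matrix.mulVec, dotProduct, Fin.sum_univ_two]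
  have hp : IsPGroup 2 (Subgroup.zpowers (refl2 F)) := by
    refine IsPGroup.of_card_dvd_pow (n := 1) ?_
    rw [Nat.card_zpowers, pow_one]
    exact orderOf_dvd_of_pow_eq_one (by rw [sq, refl2_mul_self])
  obtain ⟨D, h1, h3, h4, h5⟩ := exists_le_sylowIn hp (Subgroup.zpowers_le.2 ha)
  refine ⟨D, h4, ?_, h1 (Subgroup.mem_zpowers _), h3, fun x hx => ?_⟩
  · rw [card_sylowIn h3 h4 h5]
    refine pow_dvd_pow 2 ?_
    have hB : ∀ x : Fin 2 → F, Matrix.toBilin' (1 : Matrix (Fin 2) (Fin 2) F) x x =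
        x 0 ^ 2 + x 1 ^ 2 := fun x => by
      rw [Matrix.toBilin'_apply', Matrix.one_mulVec]
      simp [dotProduct, Fin.sum_univ_two, sq]
    have ht := hasType_of_linearEquiv hF (B := Matrix.toBilin' (1 : Matrix (Fin 2) (Fin 2) F))
      (fun u _ hu => by
        funext i
        have := hu (Pi.single i 1) trivial
        rw [Matrix.toBilin'_apply', Matrix.one_mulVec] at this
        simpa using this) (fun _ : Fin 2 => 1) (LinearEquiv.refl _ _) fun x => by
        simp [hB, Fin.sum_univ_two]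
    simp only [Fintype.card_fin, Units.val_one, qChi_one, Finset.prod_const_one] at ht
    have h6 := padicValInt_two_pow_sub_one (four_dvd_qChi_mul_sub_one hF) qChi_mul_card_ne_one
      one_ne_zero
    have h7 := factorization_of_cast_eq hF h6.1 (HasType.ncard_even (m := 0) hF ht one_ne_zero)
    rw [h6.2, Nat.factorization_one, Finsupp.zero_apply, add_zero, ← qVal] at h7
    have h8 : Nat.card (GeneralLinearGroup.det.ker ⊓ O : Subgroup (GL (Fin 2) F)) =
        {w | w ∈ (⊤ : Submodule F (Fin 2 → F)) ∧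
          Matrix.toBilin' (1 : Matrix (Fin 2) (Fin 2) F) w w = 1}.ncard := by
      rw [← Nat.card_coe_set_eq]
      have hdet : ∀ w : Fin 2 → F, Matrix.toBilin' (1 : Matrix (Fin 2) (Fin 2) F) w w = 1 →
          (!![w 0, -w 1; w 1, w 0] : Matrix (Fin 2) (Fin 2) F).det = 1 := fun w hw => by
        rw [hB] at hw
        rw [Matrix.det_fin_two_of]
        linear_combination hw
      refine Nat.card_congr ⟨fun x => ⟨![x.1 0 0, x.1 1 0], trivial, ?_⟩,
        fun w => ⟨GeneralLinearGroup.mkOfDetNeZero _ ((hdet w.1 w.2.2).symm ▸ one_ne_zero),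
          Units.ext (hdet w.1 w.2.2), mem_isometryGroup.2 fun v => ?_⟩, fun x => ?_, fun w => ?_⟩
      · rw [hB]; exact (o2_entries h2 x.2.2).1
      · have hw := w.2.2
        rw [hB] at hw
        simp [Units.smul_def, Matrix.mulVec, dotProduct, Fin.sum_univ_two]
        linear_combination (v 0 ^ 2 + v 1 ^ 2) * hw
      · obtain ⟨-, e1, e2, -⟩ := o2_entries h2 x.2.2
        have hd : x.1.1.det = 1 := congrArg Units.val x.2.1
        rw [hd] at e1 e2
        refine Subtype.ext (Units.ext ?_)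
        ext a b
        fin_cases a <;> fin_cases b <;> simp [e1, e2]
      · refine Subtype.ext (funext fun i => ?_)
        fin_cases i <;> rfl
    have h9 : 2 ∣ GeneralLinearGroup.det.ker.relIndex O := by
      rw [Subgroup.relIndex_ker]
      have h10 : orderOf (-1 : Fˣ) = 2 := orderOf_eq_prime (by simp) fun h =>
        h2 (by have := congrArg Units.val h; simp at this; linear_combination -this)
      refine h10.symm.dvd.trans (Subgroup.orderOf_dvd_natCard _ ⟨refl2 F, ha, Units.ext ?_⟩)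
      simp [refl2, Matrix.det_fin_two]
    have h11 : GeneralLinearGroup.det.ker.relIndex O ≠ 0 := Subgroup.index_ne_zero_of_finite
    rw [← card_inf_mul_relIndex GeneralLinearGroup.det.ker O, h8,
      Nat.factorization_mul h7.1 h11, Finsupp.add_apply, h7.2]
    exact Nat.add_le_add_left ((Nat.prime_two.dvd_iff_one_le_factorization h11).1 h9) _
  · obtain ⟨e0, e1, e2, e3⟩ := o2_entries h2 (h3 hx)
    rw [sq, mul_self_eq_one_iff] at e3
    rcases e3 with e3 | e3 <;> rw [e3] at e1 e2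
    · right
      rw [eq_inv_iff_mul_eq_one, inv_eq_of_mul_eq_one_right refl2_mul_self]
      apply Units.ext
      change !![-1, 0; 0, 1] * x.1 * !![-1, 0; 0, 1] * x.1 = 1
      rw [Matrix.eta_fin_two x.1, e1, e2]
      ext a b
      fin_cases a <;> fin_cases b <;> simp <;> first | linear_combination e0 | ring
    · left
      apply Units.ext
      rw [sq]
      change x.1 * x.1 = 1
      ext a b
      fin_cases a <;> fin_cases b <;>
        simp [Matrix.mul_apply, Fin.sum_univ_two, e1, e2] <;>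
        first | linear_combination e0 | ring

section Diag

variable {β γ : Type} [Fintype β] [Fintype γ] [DecidableEq β] [DecidableEq γ]

/-- the diagonal form with weights `1` on the blocks and `d` on the rest -/
def diagQ (β : Type) [Fintype β] (d : γ → Fˣ) (v : (Fin 2 × β) ⊕ γ → F) : F :=
  ∑ i, (Sum.elim (fun _ => 1) d i : Fˣ) * v i ^ 2

omit [Fintype F] in
theorem permGL_mem_diagQ (d : γ → Fˣ) {σ : Perm ((Fin 2 × β) ⊕ γ)}
    (h : ∀ i, (Sum.elim (fun _ => 1) d (σ i) : Fˣ) = Sum.elim (fun _ => 1) d i) :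
    permGL F σ ∈ isometryGroup F (diagQ β d) := by
  refine mem_isometryGroup.2 fun v => ?_
  rw [diagQ, diagQ, ← Equiv.sum_comp σ]
  refine Finset.sum_congr rfl fun i _ => ?_
  rw [h, permGL_smul]
  simp

omit [Fintype F] in
theorem swap_mem_diagQ (d : γ → Fˣ) {i j : (Fin 2 × β) ⊕ γ}
    (h : (Sum.elim (fun _ => 1) d i : Fˣ) = Sum.elim (fun _ => 1) d j) :
    permGL F (swap i j) ∈ isometryGroup F (diagQ β d) := by
  refine permGL_mem_diagQ d fun k => ?_
  rw [swap_apply_def]
  split_ifs with h1 h2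
  · rw [h1, h]
  · rw [h2, h]
  · rfl

omit [Fintype F] in
theorem blockGL_mem_commutator (d : γ → Fˣ) (σ : Perm β) :
    blockGL F γ σ ∈ ⁅isometryGroup F (diagQ β d), isometryGroup F (diagQ β d)⁆ := by
  induction σ using Perm.swap_induction_on with
  | one => rw [map_one]; exact Subgroup.one_mem _
  | swap_mul f b b' hb ih =>
    rw [map_mul]
    refine Subgroup.mul_mem _ ?_ ih
    have h : blockPerm (Fin 2) γ (swap b b') = ⁅swap (Sum.inl ((0 : Fin 2), b) : (Fin 2 × β) ⊕ γ)
        (Sum.inl (0, b')),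
        basePerm γ fun _ : β => swap (0 : Fin 2) 1⁆ := by
      rw [commutatorElement_def, swap_inv, mul_assoc, mul_assoc, ← mul_assoc (basePerm γ _),
        ← swap_apply_apply]
      ext (⟨a, c⟩ | c)
      · fin_cases a <;> by_cases h1 : c = b <;> by_cases h2 : c = b' <;>
          simp_all [swap_apply_def]
      · simp [swap_apply_def]
    rw [blockGL, MonoidHom.comp_apply, h, map_commutatorElement]
    refine Subgroup.commutator_mem_commutator (swap_mem_diagQ d rfl) (permGL_mem_diagQ d ?_)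
    rintro (⟨a, c⟩ | c) <;> rfl

omit [Fintype F] in
theorem baseGL_mem_diagQ (d : γ → Fˣ) (x : (β → GL (Fin 2) F) × (γ → Fˣ))
    (h1 : ∀ b, x.1 b ∈ isometryGroup F (fun v : Fin 2 → F => v 0 ^ 2 + v 1 ^ 2))
    (h2 : ∀ c, x.2 c ^ 2 = 1) : baseGL x ∈ isometryGroup F (diagQ β d) := by
  refine mem_isometryGroup.2 fun v => ?_
  simp only [diagQ, Fintype.sum_sum_type, Fintype.sum_prod_type_right, Fin.sum_univ_two,
    Sum.elim_inl, Sum.elim_inr, baseGL_smul_inl, baseGL_smul_inr, Units.val_one, one_mul]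
  congr 1
  · refine Finset.sum_congr rfl fun b _ => ?_
    have := mem_isometryGroup.1 (h1 b) ![v (Sum.inl (0, b)), v (Sum.inl (1, b))]
    simpa [Units.smul_def, Matrix.mulVec, dotProduct, Fin.sum_univ_two] using this
  · refine Finset.sum_congr rfl fun c _ => ?_
    have : (x.2 c : F) ^ 2 = 1 := congrArg Units.val (h2 c)
    rw [mul_pow, this, one_mul]

omit [Fintype F] in
theorem swap_conj_refl2 (b : β) (c : γ) :
    permGL F (swap (Sum.inl (0, b)) (Sum.inr c)) * atBlock γ b (refl2 F) *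
      (permGL F (swap (Sum.inl (0, b)) (Sum.inr c)))⁻¹ = atCoord β c (-1) := by
  rw [← map_inv, swap_inv]
  refine GL_ext_smul fun v => funext ?_
  rintro (⟨a, b'⟩ | c')
  · by_cases h : b' = b
    · subst h
      fin_cases a <;>
        simp [mul_smul, permGL_smul, atBlock_apply, atCoord_apply, swap_apply_def, refl2]
    · fin_cases a <;>
        simp [mul_smul, permGL_smul, atBlock_apply, atCoord_apply, swap_apply_def, refl2, h]
  · by_cases h : c' = c
    · subst h
      simp [mul_smul, permGL_smul, atBlock_apply, atCoord_apply, swap_apply_def, refl2]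
    · simp [mul_smul, permGL_smul, atBlock_apply, atCoord_apply, swap_apply_def, refl2, h]

theorem exists_sylow_abExp_diagQ (hF : Odd (Fintype.card F)) (d : γ → Fˣ) (b₀ : β)
    (hpart : (∃ b, b ≠ b₀) ∨ ∃ c, d c = 1)
    (hbound : ∀ S : Subgroup (isometryGroup F (diagQ β d)), IsPGroup 2 S →
      Nat.card S ∣ 2 ^ ((qVal F + 1) * Fintype.card β + (Fintype.card β).factorial.factorization 2 +
        Fintype.card γ)) :
    ∃ S : Sylow 2 (isometryGroup F (diagQ β d)),
      AbExp 2 ((S : Subgroup (isometryGroup F (diagQ β d))) ⊓ commutator _) := by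
  have h2 := two_ne_zero_of_odd_card hF
  obtain ⟨D, hD, hDc, haD, hDO, hDx⟩ := exists_o2_data hF
  set K := isometryGroup F (diagQ β d) with hK
  let E := Subgroup.zpowers (-1 : Fˣ)
  have hE2 : ∀ e ∈ E, e ^ 2 = 1 := by
    rintro _ ⟨k, rfl⟩
    change ((-1 : Fˣ) ^ k) ^ 2 = 1
    rw [← zpow_natCast, ← _root_.zpow_mul, mul_comm, _root_.zpow_mul]
    simp
  have hEc : Nat.card E = 2 := by
    rw [Nat.card_zpowers]
    exact orderOf_eq_prime (by simp) fun h =>
      h2 (by have := congrArg Units.val h; simp at this; linear_combination -this)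
  let T : Sylow 2 (Perm β) := default
  set W := wrBase (β := β) (γ := γ) D E ⊔ (T : Subgroup (Perm β)).map (blockGL F γ) with hW
  have hbK : wrBase (β := β) (γ := γ) D E ≤ K := by
    intro g hg
    obtain ⟨f, e, hf, he, rfl⟩ := mem_wrBase.1 hg
    exact baseGL_mem_diagQ d _ (fun b => hDO (hf b)) fun c => hE2 _ (he c)
  have hblK : ∀ σ, blockGL F γ σ ∈ K := fun σ =>
    Subgroup.commutator_le_self _ (blockGL_mem_commutator d σ)
  have hWK : W ≤ K := by
    refine sup_le hbK ?_
    rintro _ ⟨σ, -, rfl⟩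
    exact hblK σ
  obtain ⟨k, hk⟩ := IsPGroup.iff_card.1 hD
  have hcard : Nat.card (W.subgroupOf K) = 2 ^ (k * Fintype.card β +
      (Fintype.card β).factorial.factorization 2 + Fintype.card γ) := by
    rw [card_subgroupOf_of_le hWK, (wrBase_sup _ _ _).2, hk, hEc, T.card_eq_multiplicity,
      Nat.card_perm, Nat.card_eq_fintype_card]
    ring
  obtain ⟨S, hS⟩ := exists_sylow_eq_of_card_le (IsPGroup.of_card hcard) fun S hS => by
    refine (Nat.le_of_dvd (by positivity) (hbound S hS)).trans ?_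
    rw [hcard]
    rw [hk, Nat.pow_dvd_pow_iff_le_right one_lt_two] at hDc
    exact Nat.pow_le_pow_right two_pos (by gcongr)
  refine ⟨S, ?_⟩
  rw [hS]
  -- the sign change at a block and its partner
  have haa : (refl2 F)⁻¹ = refl2 F := inv_eq_of_mul_eq_one_right refl2_mul_self
  have hcomm : ∀ b b' : β, ∀ r ∈ D, atBlock γ b r * (atBlock γ b' r)⁻¹ ∈ ⁅K, K⁆ := by
    intro b b' r hr
    have := Subgroup.commutator_mem_commutator (hblK (swap b b')) (hbK (atBlock_mem_wrBase b' hr))
    rwa [commutatorElement_def, blockGL_mul_atBlock, swap_apply_right] at this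
  obtain ⟨g, hgW, hgK, hg⟩ : ∃ g ∈ W, g ∈ ⁅K, K⁆ ∧ ∀ (r : GL (Fin 2) F) (e : γ → Fˣ),
      g * baseGL (Pi.mulSingle b₀ r, e) * g⁻¹ =
        baseGL (Pi.mulSingle b₀ (refl2 F * r * (refl2 F)⁻¹), e) := by
    rcases hpart with ⟨b, hb⟩ | ⟨c, hc⟩
    · refine ⟨atBlock γ b₀ (refl2 F) * (atBlock γ b (refl2 F))⁻¹, Subgroup.mem_sup_left
        (Subgroup.mul_mem _ (atBlock_mem_wrBase _ haD)
          (Subgroup.inv_mem _ (atBlock_mem_wrBase _ haD))), hcomm _ _ _ haD, fun r e => ?_⟩
      rw [atBlock_apply, atBlock_apply, ← map_inv, ← map_mul, ← map_mul, ← map_inv, ← map_mul]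
      refine congrArg baseGL (Prod.ext (funext fun b' => ?_) (by simp))
      by_cases h1 : b' = b₀
      · subst h1; simp [hb.symm]
      · simp [h1]
    · refine ⟨atCoord β c (-1) * (atBlock γ b₀ (refl2 F))⁻¹, Subgroup.mem_sup_left
        (Subgroup.mul_mem _ (atCoord_mem_wrBase _ (Subgroup.mem_zpowers _))
          (Subgroup.inv_mem _ (atBlock_mem_wrBase _ haD))), ?_, fun r e => ?_⟩
      · rw [← swap_conj_refl2 b₀ c]
        exact Subgroup.commutator_mem_commutator (swap_mem_diagQ d hc.symm)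
          (hbK (atBlock_mem_wrBase _ haD))
      rw [atBlock_apply, atCoord_apply, ← map_inv, ← map_mul, ← map_mul, ← map_inv, ← map_mul]
      refine congrArg baseGL (Prod.ext (funext fun b' => ?_) (by simp))
      by_cases h1 : b' = b₀
      · subst h1; simp [haa]
      · simp [h1]
  refine AbExp.of_map K.subtype_injective ?_
  rw [Subgroup.map_inf _ _ _ K.subtype_injective, Subgroup.map_subgroupOf_eq_of_le hWK,
    Subgroup.map_subtype_commutator]
  refine abExp_inf_of_le_sup' (Y := ((D.map (MonoidHom.mulSingle (fun _ => GL (Fin 2) F) b₀)).prod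
    (Subgroup.pi Set.univ fun _ : γ => E)).map baseGL)
    (hWK.trans (Subgroup.le_normalizer_iff_commutator_le_left.2
      (Subgroup.commutator_mono (Subgroup.commutator_le_self _) le_rfl))) ?_
    (sup_le (wrBase_le (fun b r hr => ?_) fun c r hr => Subgroup.mem_sup_right ?_)
      ((map_blockGL_le_abExpSub T le_sup_right (blockGL_mem_commutator d)).trans le_sup_left)) ?_
  · rintro _ ⟨⟨_, e⟩, ⟨⟨r, hr, rfl⟩, he⟩, rfl⟩
    refine Subgroup.mem_sup_left (mem_wrBase.2 ⟨_, e, fun b => ?_, fun c => he c trivial, rfl⟩)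
    by_cases h1 : b = b₀
    · subst h1; simpa using hr
    · simp [h1]
  · rw [← inv_mul_cancel_right (atBlock γ b r) (atBlock γ b₀ r)]
    refine Subgroup.mul_mem _ (Subgroup.mem_sup_left ?_) (Subgroup.mem_sup_right
      ⟨(Pi.mulSingle b₀ r, 1), ⟨⟨r, hr, rfl⟩, Subgroup.one_mem _⟩, rfl⟩)
    by_cases hb : b = b₀
    · rw [hb, mul_inv_cancel]; exact Subgroup.one_mem _
    have hmem : ∀ r ∈ D, atBlock γ b r * (atBlock γ b₀ r)⁻¹ ∈ W ⊓ ⁅K, K⁆ := fun r hr =>
      ⟨Subgroup.mem_sup_left (Subgroup.mul_mem _ (atBlock_mem_wrBase _ hr)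
        (Subgroup.inv_mem _ (atBlock_mem_wrBase _ hr))), hcomm _ _ _ hr⟩
    rcases hDx r hr with h | h
    · refine mem_abExpSub_of_pow_eq_one (hmem r hr) ?_
      rw [← map_inv, (commute_atBlock hb _ _).mul_pow, ← map_pow, ← map_pow, inv_pow, h]
      simp
    · refine mem_abExpSub_of_conj_eq_inv (hmem r hr) (hmem _ haD) ?_
      simp only [atBlock_apply, ← map_inv, ← map_mul]
      refine congrArg baseGL (Prod.ext (funext fun b' => ?_) (by simp))
      by_cases h1 : b' = b₀
      · subst h1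
        have := congrArg (·⁻¹) h
        simpa [Ne.symm hb, haa, mul_assoc] using this
      · by_cases h3 : b' = b
        · subst h3; simpa [h1] using h
        · simp [h1, h3]
  · refine ⟨(1, Pi.mulSingle c r), ⟨Subgroup.one_mem _, fun c' _ => ?_⟩, rfl⟩
    by_cases h1 : c' = c
    · subst h1; simpa using hr
    · simp [h1]
  · rintro _ ⟨⟨_, e⟩, ⟨⟨r, hr, rfl⟩, he⟩, rfl⟩ hN
    have hmem : baseGL (Pi.mulSingle b₀ r, e) ∈ W ⊓ ⁅K, K⁆ := by
      refine ⟨Subgroup.mem_sup_left (mem_wrBase.2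
        ⟨_, e, fun b => ?_, fun c => he c trivial, rfl⟩), hN⟩
      by_cases h1 : b = b₀
      · subst h1; simpa using hr
      · simp [h1]
    have he2 : e ^ 2 = 1 := funext fun c => hE2 _ (he c trivial)
    rcases hDx r hr with h | h
    · refine mem_abExpSub_of_pow_eq_one hmem ?_
      change baseGL (Pi.mulSingle b₀ r, e) ^ 2 = 1
      rw [← map_pow, Prod.pow_mk, he2, ← Pi.mulSingle_pow, h, Pi.mulSingle_one]
      exact map_one _
    · refine mem_abExpSub_of_conj_eq_inv hmem ⟨hgW, hgK⟩ ?_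
      change g * baseGL (Pi.mulSingle b₀ r, e) * g⁻¹ = (baseGL (Pi.mulSingle b₀ r, e))⁻¹
      rw [hg, h, ← map_inv, Prod.inv_mk, Pi.mulSingle_inv]
      congr 2
      rw [eq_inv_iff_mul_eq_one, ← sq, he2]

end Diag

omit [Fintype F] in
/-- transport of general linear groups along a linear equivalence -/
noncomputable def conjGL {ι κ : Type*} [Fintype ι] [DecidableEq ι] [Fintype κ] [DecidableEq κ]
    (L : (ι → F) ≃ₗ[F] (κ → F)) : GL ι F ≃* GL κ F :=
  Units.mapEquiv ((Matrix.toLinAlgEquiv'.trans (L.conjAlgEquiv F)).trans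
    LinearMap.toMatrixAlgEquiv').toMulEquiv

omit [Fintype F] in
theorem conjGL_smul {ι κ : Type*} [Fintype ι] [DecidableEq ι] [Fintype κ] [DecidableEq κ]
    (L : (ι → F) ≃ₗ[F] (κ → F)) (g : GL ι F) (v : κ → F) :
    conjGL L g • v = L (g • L.symm v) :=
  LinearMap.toMatrix'_mulVec (L.conjAlgEquiv F (Matrix.toLinAlgEquiv' (g : Matrix ι ι F))) v

omit [Fintype F] in
theorem nonempty_isometryGroup_mulEquiv {ι κ : Type} [Fintype ι] [DecidableEq ι] [Fintype κ]
    [DecidableEq κ] (L : (ι → F) ≃ₗ[F] (κ → F)) {Q : (ι → F) → F} {Q' : (κ → F) → F}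
    (h : ∀ x, Q' (L x) = Q x) : Nonempty (isometryGroup F Q ≃* isometryGroup F Q') := by
  refine ⟨((conjGL L).subgroupMap _).trans (MulEquiv.subgroupCongr ?_)⟩
  ext g
  obtain ⟨g, rfl⟩ := (conjGL L).surjective g
  refine (Subgroup.mem_map_iff_mem (conjGL L).injective).trans ?_
  rw [mem_isometryGroup, mem_isometryGroup]
  constructor
  · intro hg v
    rw [conjGL_smul, h, hg, ← h, L.apply_symm_apply]
  · intro hg v
    rw [← h, ← h, ← hg (L v), conjGL_smul, L.symm_apply_apply]

/-- Sylow `2`-subgroups of `Ω(Q)` have elementary abelian commutator quotient -/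
theorem sylow_omega_abExp (hF : Odd (Fintype.card F)) {ι : Type} [Fintype ι] [DecidableEq ι]
    (hι : 4 ≤ Fintype.card ι) (Q : QuadraticForm F (ι → F))
    (hQ : ∀ u, (∀ v, Q (u + v) = Q u + Q v) → u = 0) (P : Sylow 2 (Omega F Q)) :
    AbExp 2 (P : Subgroup (Omega F Q)) := by
  have h2 := two_ne_zero_of_odd_card hF
  let _ : Invertible (2 : F) := invertibleOfNonzero h2
  let B : LinearMap.BilinForm F (ι → F) := QuadraticMap.associated Q
  have hBQ : ∀ v, B v v = Q v := QuadraticMap.associated_eq_self_apply F Q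
  have hBa : ∀ u v, B u v = ⅟(2 : Module.End F F) • (Q (u + v) - Q u - Q v) :=
    QuadraticMap.associated_apply F Q
  have hs : ∀ u v, B u v = B v u := QuadraticMap.associated_isSymm F Q
  have hnd : NondegOn B ⊤ := fun u _ hu => hQ u fun v => by
    rw [← hBQ, ← hBQ, ← hBQ]
    simp only [map_add, LinearMap.add_apply, hu v trivial, hs v u]
    ring
  have hB : ∀ (g : isometryGroup F Q) u v, B (g • u) (g • v) = B u v := fun g u v => by
    have h := mem_isometryGroup.1 g.2
    rw [hBa, hBa, ← smul_add]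
    congr 1
    exact congrArg₂ _ (congrArg₂ _ (h _) (h _)) (h _)
  have hfaith : ∀ S : Subgroup (isometryGroup F Q), FaithfulOn S (⊤ : Submodule F (ι → F)) :=
    fun S => ⟨fun _ _ _ _ => trivial, fun g _ hg => Subtype.ext (GL_ext_smul fun v =>
      (hg v trivial).trans (one_smul _ v).symm)⟩
  obtain ⟨δ, hδ⟩ := exists_hasType hF hs (Fintype.card ι) ⊤ (by
    rw [Nat.card_congr (Submodule.topEquiv (R := F) (M := ι → F)).toEquiv, Nat.card_fun,
      Nat.card_eq_fintype_card, Nat.card_eq_fintype_card]) hnd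
  have main : ∀ (k r : ℕ) (d : Fin r → Fˣ), 2 * k + r = Fintype.card ι → ∏ i, qChi F (d i) = δ →
      (2 ≤ k ∨ (1 ≤ k ∧ ∃ c, d c = 1)) → (∀ S : Subgroup (isometryGroup F Q), IsPGroup 2 S →
        Nat.card S ∣ 2 ^ ((qVal F + 1) * k + k.factorial.factorization 2 + r)) →
      AbExp 2 (P : Subgroup (Omega F Q)) := by
    intro k r d hkr hd hpart hbound
    obtain ⟨L, hL⟩ := hδ.exists_linearEquiv hF hs (ι := (Fin 2 × Fin k) ⊕ Fin r) (by simp [← hkr])
      (Sum.elim (fun _ => 1) d) (by simp [Fintype.prod_sum_type, qChi_one, hd])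
    obtain ⟨e⟩ := nonempty_isometryGroup_mulEquiv L (Q := diagQ (Fin k) d) (Q' := Q) fun x =>
      (hBQ _).symm.trans (hL x)
    have hk : 0 < k := by omega
    have hp : (∃ b : Fin k, b ≠ ⟨0, hk⟩) ∨ ∃ c, d c = 1 := by
      rcases hpart with h | h
      · exact Or.inl ⟨⟨1, h⟩, by simp⟩
      · exact Or.inr h.2
    have hb : ∀ S : Subgroup (isometryGroup F (diagQ (Fin k) d)), IsPGroup 2 S →
        Nat.card S ∣ 2 ^ ((qVal F + 1) * Fintype.card (Fin k) +
          (Fintype.card (Fin k)).factorial.factorization 2 + Fintype.card (Fin r)) := by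
      intro S hS
      rw [← Subgroup.card_map_of_injective (f := e.toMonoidHom) e.injective, Fintype.card_fin,
        Fintype.card_fin]
      exact hbound _ (hS.map e.toMonoidHom)
    obtain ⟨S, hS⟩ := exists_sylow_abExp_diagQ hF d ⟨0, hk⟩ hp hb
    let f := e.symm.toMonoidHom.comp (Omega F Q).subtype
    have hf : f.range = commutator _ := by
      rw [MonoidHom.range_comp, Subgroup.range_subtype, Omega, commutator_def, commutator_def,
        Subgroup.map_commutator, Subgroup.map_top_of_surjective _ e.symm.surjective]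
    have : f.range.Normal := by rw [hf]; infer_instance
    refine sylow_abExp_of_injective f (e.symm.injective.comp Subtype.val_injective) S ?_ P
    rwa [hf]
  obtain ⟨a, ha⟩ := exists_qChi_eq_neg_one hF
  obtain ⟨m, hm | hm⟩ := Nat.even_or_odd' (Fintype.card ι)
  · obtain ⟨m, rfl⟩ : ∃ m', m = m' + 1 := ⟨m - 1, by omega⟩
    have h3 := fun S hS => HasType.card_dvd_aux hF hs hB m (HasType.card_dvd_odd hF hs hB m) ⊤ S hS
      (hfaith S)
    rw [hm] at hδ
    rcases hδ.2.2.1 with rfl | rfl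
    · exact main (m + 1) 0 Fin.elim0 hm.symm (by simp) (Or.inl (by omega))
        fun S hS => (h3 S hS).1 hδ
    · exact main m 2 ![1, a] (by omega) (by simp [qChi_one, ha]) (Or.inr ⟨by omega, 0, rfl⟩)
        fun S hS => (h3 S hS).2 hδ
  · rw [hm] at hδ
    obtain ⟨c, hc⟩ : ∃ c : Fˣ, qChi F c = δ := by
      rcases hδ.2.2.1 with h1 | h1
      · exact ⟨1, h1 ▸ qChi_one⟩
      · exact ⟨a, h1 ▸ ha⟩
    exact main m 1 ![c] hm.symm (by simp [hc]) (Or.inl (by omega))
      fun S hS => HasType.card_dvd_odd hF hs hB m ⊤ δ S hδ hS (hfaith S)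

end Cfsg
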