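import Cfsg.Agent.Grp.QuadCount

/-! Upper bounds for the orders of `2`-groups of isometries of finite symplectic and quadratic
spaces in odd characteristic; diagonalisation with prescribed norms. -/

set_option autoImplicit false

namespace Cfsg

open scoped Pointwise Classical

theorem padicValInt_two_pow_sub_one {x : ℤ} (hx : 4 ∣ x - 1) (h1 : x ≠ 1) {n : ℕ} (hn : n ≠ 0) :
    x ^ n - 1 ≠ 0 ∧ padicValInt 2 (x ^ n - 1) = padicValInt 2 (x - 1) + n.factorization 2 := by
  have h0 : x ^ n - 1 ≠ 0 := by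
    intro h
    rcases (pow_eq_one_iff_of_ne_zero hn).1 (sub_eq_zero.1 h) with h2 | h2
    · exact h1 h2
    · rw [h2.1] at hx; norm_num at hx
  refine ⟨h0, ?_⟩
  have h2 := Int.two_pow_sub_pow' (x := x) (y := 1) n hx (by omega)
  rw [one_pow] at h2
  have key : ∀ z : ℤ, z ≠ 0 → emultiplicity (2 : ℤ) z = padicValInt 2 z := fun z hz => by
    rw [padicValInt.of_ne_one_ne_zero (by norm_num) hz]
    exact (Int.finiteMultiplicity_iff.2 ⟨by norm_num, hz⟩).emultiplicity_eq_multiplicity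
  rw [key _ h0, key _ (sub_ne_zero.2 h1), key _ (Nat.cast_ne_zero.2 hn), padicValInt.of_nat] at h2
  rw [Nat.factorization_def _ Nat.prime_two]
  exact_mod_cast h2

theorem padicValInt_two_pow_add_one {x : ℤ} (hx : 4 ∣ x - 1) (n : ℕ) :
    x ^ n + 1 ≠ 0 ∧ padicValInt 2 (x ^ n + 1) = 1 := by
  have h1 : 4 ∣ x ^ n - 1 := hx.trans (by simpa using sub_dvd_pow_sub_pow x 1 n)
  obtain ⟨k, hk⟩ := h1
  have h2 : x ^ n + 1 = 2 * (2 * k + 1) := by linear_combination hk
  have h3 : (2 * k + 1 : ℤ) ≠ 0 := by omega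
  rw [h2]
  refine ⟨mul_ne_zero two_ne_zero h3, ?_⟩
  rw [padicValInt.mul two_ne_zero h3, padicValInt.eq_zero_of_not_dvd (z := 2 * k + 1) (by
    push_cast; omega)]
  exact padicValInt.self (p := 2) (by norm_num)

variable {F : Type*} [Field F] [Fintype F] {V : Type*} [AddCommGroup V] [Module F V]

/-- the `2`-adic valuation of `q - ε`, where `ε = ±1 ≡ q (mod 4)` -/
noncomputable def qVal (F : Type*) [Field F] [Fintype F] : ℕ :=
  padicValInt 2 (qChi F (-1) * Fintype.card F - 1)

theorem qChi_mul_card_ne_one : qChi F (-1) * Fintype.card F ≠ 1 := by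
  have := Fintype.one_lt_card (α := F)
  rcases qChi_dichotomy (neg_ne_zero.2 (one_ne_zero (α := F))) with h | h <;> rw [h] <;> omega

theorem factorization_of_cast_eq (hF : Odd (Fintype.card F)) {N a b : ℕ} {z : ℤ} (hz : z ≠ 0)
    (h : (N : ℤ) = Fintype.card F ^ a * qChi F (-1) ^ b * z) :
    N ≠ 0 ∧ N.factorization 2 = padicValInt 2 z := by
  have h1 : Odd ((Fintype.card F : ℤ) ^ a * qChi F (-1) ^ b) := by
    refine Odd.mul (Odd.pow (by exact_mod_cast hF)) (Odd.pow ?_)
    rcases qChi_dichotomy (neg_ne_zero.2 (one_ne_zero (α := F))) with h | h <;> rw [h] <;> decide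
  have h2 : (Fintype.card F : ℤ) ^ a * qChi F (-1) ^ b ≠ 0 := by
    intro h3; rw [h3] at h1; exact absurd h1 (by decide)
  refine ⟨fun h3 => mul_ne_zero h2 hz (by rw [← h, h3]; rfl), ?_⟩
  rw [Nat.factorization_def _ Nat.prime_two, ← padicValInt.of_nat, h, padicValInt.mul h2 hz,
    padicValInt.eq_zero_of_not_dvd (by
      rw [Nat.cast_ofNat, ← even_iff_two_dvd]; exact Int.not_even_iff_odd.2 h1), zero_add]

theorem factorization_sq_sub_one (hF : Odd (Fintype.card F)) :
    (Fintype.card F ^ 2 - 1).factorization 2 = qVal F + 1 := by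
  have h1 := padicValInt_two_pow_sub_one (four_dvd_qChi_mul_sub_one hF) qChi_mul_card_ne_one
    two_ne_zero
  have h2 := factorization_of_cast_eq hF (N := Fintype.card F ^ 2 - 1) (a := 0) (b := 0) h1.1 (by
    rw [Nat.cast_sub (Nat.one_le_pow _ _ Fintype.card_pos), mul_pow,
      qChi_sq (neg_ne_zero.2 (one_ne_zero (α := F)))]
    push_cast; ring)
  rw [h2.2, h1.2, Nat.prime_two.factorization_self]
  rfl

variable [Fintype V] {B : LinearMap.BilinForm F V}

theorem HasType.ncard_ne_zero (hF : Odd (Fintype.card F)) {W : Submodule F V} {n : ℕ} {δ : ℤ}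
    (h : HasType B W (n + 1) δ) {a : F} (ha : a ≠ 0) (hn : n = 0 → qChi F a = δ) :
    {w | w ∈ W ∧ B w w = a}.ncard ≠ 0 := by
  have h4 := four_dvd_qChi_mul_sub_one hF
  rcases Nat.even_or_odd' n with ⟨m, rfl | rfl⟩
  · refine (factorization_of_cast_eq hF ?_ (h.ncard_odd hF ha)).1
    have h1 : δ * qChi F a = 1 ∨ (δ * qChi F a = -1 ∧ m ≠ 0) := by
      rcases h.2.2.1 with h1 | h1 <;> rcases qChi_dichotomy ha with h2 | h2 <;>
        simp only [h1, h2] at hn ⊢ <;> omega
    rcases h1 with h1 | ⟨h1, h2⟩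
    · rw [h1]; exact (padicValInt_two_pow_add_one h4 m).1
    · rw [h1]; exact (padicValInt_two_pow_sub_one h4 qChi_mul_card_ne_one h2).1
  · refine (factorization_of_cast_eq hF ?_ (h.ncard_even hF ha)).1
    rcases h.2.2.1 with h1 | h1
    · rw [h1]; exact (padicValInt_two_pow_sub_one h4 qChi_mul_card_ne_one (by omega)).1
    · rw [h1, sub_neg_eq_add]; exact (padicValInt_two_pow_add_one h4 _).1

theorem HasType.exists_orth_fin (hF : Odd (Fintype.card F)) (hs : ∀ u v, B u v = B v u) (n : ℕ) :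
    ∀ (W : Submodule F V) (δ : ℤ), HasType B W n δ → ∀ d : Fin n → Fˣ,
      ∏ i, qChi F (d i) = δ → ∃ e : Fin n → V, (∀ i, e i ∈ W) ∧ (∀ i, B (e i) (e i) = d i) ∧
        ∀ i j, i ≠ j → B (e i) (e j) = 0 := by
  induction n with
  | zero => exact fun W δ _ d _ => ⟨Fin.elim0, fun i => i.elim0, fun i => i.elim0, fun i => i.elim0⟩
  | succ n ih =>
    intro W δ h d hd
    obtain ⟨v, hv, hvv⟩ := Set.nonempty_of_ncard_ne_zero (h.ncard_ne_zero hF (d 0).ne_zero (by
      rintro rfl
      rw [← hd]; simp))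
    have hvv' : B v v ≠ 0 := hvv ▸ (d 0).ne_zero
    obtain ⟨e, h1, h2, h3⟩ := ih _ _ (h.inf_ker hF hs hv hvv') (fun i => d i.succ) (by
      rw [← hd, Fin.prod_univ_succ, hvv]
      linear_combination -(∏ i : Fin n, qChi F (d i.succ)) * qChi_sq (d 0).ne_zero)
    refine ⟨Fin.cons v e, fun i => ?_, fun i => ?_, fun i j hij => ?_⟩
    · refine Fin.cases hv (fun i => (h1 i).1) i
    · refine Fin.cases hvv (fun i => h2 i) i
    · revert hij
      refine Fin.cases ?_ (fun i => ?_) i <;> refine Fin.cases ?_ (fun j => ?_) j <;> intro hij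
      · exact absurd rfl hij
      · exact (h1 j).2
      · exact (hs _ _).trans (h1 i).2
      · exact h3 i j fun e => hij (congrArg _ e)

theorem HasType.exists_linearEquiv (hF : Odd (Fintype.card F)) (hs : ∀ u v, B u v = B v u)
    {n : ℕ} {δ : ℤ} (h : HasType B ⊤ n δ) {ι : Type*} [Fintype ι] (hι : Fintype.card ι = n)
    (d : ι → Fˣ) (hd : ∏ i, qChi F (d i) = δ) :
    ∃ L : (ι → F) ≃ₗ[F] V, ∀ x, B (L x) (L x) = ∑ i, d i * x i ^ 2 := by
  let σ : ι ≃ Fin n := Fintype.equivFinOfCardEq hι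
  obtain ⟨e, -, h2, h3⟩ := h.exists_orth_fin hF hs n _ _ (fun i => d (σ.symm i))
    (by rw [← hd]; exact σ.symm.prod_comp fun i => qChi F (d i))
  let L : (ι → F) →ₗ[F] V := Fintype.linearCombination F fun i => e (σ i)
  have hL : ∀ x i, B (e (σ i)) (L x) = d i * x i := by
    intro x i
    rw [Fintype.linearCombination_apply, map_sum, Finset.sum_eq_single i]
    · rw [map_smul, h2, σ.symm_apply_apply, smul_eq_mul, mul_comm]
    · intro j _ hj
      rw [map_smul, h3 _ _ (σ.injective.ne hj.symm), smul_zero]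
    · simp
  have hinj : Function.Injective L := by
    rw [injective_iff_map_eq_zero]
    intro x hx
    funext i
    have := hL x i
    rw [hx, map_zero] at this
    exact (mul_eq_zero.1 this.symm).resolve_left (d i).ne_zero
  have hbij : Function.Bijective L := by
    rw [Nat.bijective_iff_injective_and_card]
    refine ⟨hinj, ?_⟩
    rw [← Nat.card_congr (Submodule.topEquiv (R := F) (M := V)).toEquiv, h.1, Nat.card_fun,
      Nat.card_eq_fintype_card, Nat.card_eq_fintype_card, hι]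
  refine ⟨LinearEquiv.ofBijective L hbij, fun x => ?_⟩
  change B (L x) (L x) = _
  conv_lhs => enter [1, 2]; rw [Fintype.linearCombination_apply]
  rw [map_sum, LinearMap.sum_apply]
  refine Finset.sum_congr rfl fun i _ => ?_
  rw [map_smul, LinearMap.smul_apply, hL, smul_eq_mul]; ring

section Bound

variable {G : Type*} [Group G] [Finite G] [DistribMulAction G V] [SMulCommClass G F V]

/-- `P` stabilises `W` and acts faithfully on it -/
def FaithfulOn (P : Subgroup G) (W : Submodule F V) : Prop :=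
  (∀ g ∈ P, ∀ w ∈ W, g • w ∈ W) ∧ ∀ g ∈ P, (∀ w ∈ W, g • w = w) → g = 1

omit [Fintype F] [Fintype V] [Finite G] in
theorem FaithfulOn.inf_ker {P P' : Subgroup G} {W : Submodule F V} (h : FaithfulOn P W)
    (hB : ∀ (g : G) u v, B (g • u) (g • v) = B u v) (hle : P' ≤ P) {u v : V} (hu : u ∈ W)
    (huv : B v u ≠ 0) (hfu : ∀ g ∈ P', g • u = u) (hfv : ∀ g ∈ P', g • v = v) :
    FaithfulOn P' (W ⊓ LinearMap.ker (B v)) := by
  refine ⟨fun g hg w hw => ⟨h.1 g (hle hg) w hw.1, ?_⟩, fun g hg hw => h.2 g (hle hg) fun w hw' => ?_⟩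
  · change B v (g • w) = 0
    rw [← hfv g hg, hB]; exact hw.2
  · obtain ⟨t, w', hw'', rfl⟩ := exists_eq_smul_add hu huv hw'
    rw [smul_add, smul_comm, hfu g hg, hw w' hw'']

omit [Fintype V] [Finite G] [SMulCommClass G F V] in
theorem FaithfulOn.eq_bot {P : Subgroup G} {W : Submodule F V} (h : FaithfulOn P W)
    (hW : Nat.card W = Fintype.card F ^ 0) : P = ⊥ := by
  have : Subsingleton W := (Nat.card_eq_one_iff_unique.1 hW).1
  refine eq_bot_iff.2 fun g hg => h.2 g hg fun w hw => ?_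
  exact congrArg Subtype.val (Subsingleton.elim (⟨_, h.1 g hg w hw⟩ : W) ⟨w, hw⟩)

theorem HasType.step (hF : Odd (Fintype.card F)) (hs : ∀ u v, B u v = B v u)
    (hB : ∀ (g : G) u v, B (g • u) (g • v) = B u v) {W : Submodule F V} {n : ℕ} {δ : ℤ}
    (h : HasType B W (n + 1) δ) {a : F} (ha : a ≠ 0) (hn : n = 0 → qChi F a = δ)
    {P : Subgroup G} (hP : IsPGroup 2 P) (hPW : FaithfulOn P W) :
    ∃ (W' : Submodule F V) (P' : Subgroup G), HasType B W' n (δ * qChi F a) ∧ IsPGroup 2 P' ∧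
      FaithfulOn P' W' ∧
      Nat.card P ∣ 2 ^ ({w | w ∈ W ∧ B w w = a}.ncard).factorization 2 * Nat.card P' := by
  obtain ⟨v, ⟨hv, hvv⟩, h1⟩ := exists_card_dvd_of_invariant hP {w | w ∈ W ∧ B w w = a}
    (Set.toFinite _) (Set.nonempty_of_ncard_ne_zero (h.ncard_ne_zero hF ha hn))
    fun g hg w hw => ⟨hPW.1 g hg w hw.1, (hB g w w).trans hw.2⟩
  have hvv' : B v v ≠ 0 := hvv ▸ ha
  exact ⟨_, P ⊓ MulAction.stabilizer G v, hvv ▸ h.inf_ker hF hs hv hvv', hP.to_inf_left,
    hPW.inf_ker hB inf_le_left hv hvv' (fun g hg => hg.2) fun g hg => hg.2, h1⟩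

theorem HasType.card_dvd_aux (hF : Odd (Fintype.card F)) (hs : ∀ u v, B u v = B v u)
    (hB : ∀ (g : G) u v, B (g • u) (g • v) = B u v) (m : ℕ)
    (hodd : ∀ (W : Submodule F V) (δ : ℤ) (P : Subgroup G), HasType B W (2 * m + 1) δ →
      IsPGroup 2 P → FaithfulOn P W →
        Nat.card P ∣ 2 ^ ((qVal F + 1) * m + m.factorial.factorization 2 + 1))
    (W : Submodule F V) (P : Subgroup G) (hP : IsPGroup 2 P) (hPW : FaithfulOn P W) :
    (HasType B W (2 * m + 2) 1 →
      Nat.card P ∣ 2 ^ ((qVal F + 1) * (m + 1) + (m + 1).factorial.factorization 2)) ∧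
    (HasType B W (2 * m + 2) (-1) →
      Nat.card P ∣ 2 ^ ((qVal F + 1) * m + m.factorial.factorization 2 + 2)) := by
  have h4 := four_dvd_qChi_mul_sub_one hF
  constructor <;> intro h <;>
    obtain ⟨W', P', h1, h2, h3, h5⟩ := h.step hF hs hB one_ne_zero (by omega) hP hPW <;>
    refine h5.trans ((Nat.mul_dvd_mul_left _ (hodd W' _ P' h1 h2 h3)).trans ?_) <;>
    rw [← pow_add] <;> refine pow_dvd_pow 2 (le_of_eq ?_)
  · have h6 := padicValInt_two_pow_sub_one h4 qChi_mul_card_ne_one (Nat.succ_ne_zero m)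
    rw [(factorization_of_cast_eq hF h6.1 (h.ncard_even hF one_ne_zero)).2, h6.2,
      factorization_factorial_succ, ← qVal]
    ring
  · have h6 := padicValInt_two_pow_add_one h4 (m + 1)
    have h7 := h.ncard_even hF one_ne_zero
    rw [sub_neg_eq_add] at h7
    rw [(factorization_of_cast_eq hF h6.1 h7).2, h6.2]
    ring

theorem HasType.card_dvd_odd (hF : Odd (Fintype.card F)) (hs : ∀ u v, B u v = B v u)
    (hB : ∀ (g : G) u v, B (g • u) (g • v) = B u v) (m : ℕ) :
    ∀ (W : Submodule F V) (δ : ℤ) (P : Subgroup G), HasType B W (2 * m + 1) δ →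
      IsPGroup 2 P → FaithfulOn P W →
        Nat.card P ∣ 2 ^ ((qVal F + 1) * m + m.factorial.factorization 2 + 1) := by
  have h4 := four_dvd_qChi_mul_sub_one hF
  induction m with
  | zero =>
    intro W δ P h hP hPW
    obtain ⟨a, ha⟩ : ∃ a : Fˣ, qChi F a = δ := by
      rcases h.2.2.1 with h1 | h1
      · exact ⟨1, h1 ▸ qChi_one⟩
      · rw [h1]; exact exists_qChi_eq_neg_one hF
    obtain ⟨W', P', h1, h2, h3, h5⟩ := h.step hF hs hB a.ne_zero (fun _ => ha) hP hPW
    have h6 := padicValInt_two_pow_add_one h4 0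
    have h7 := h.ncard_odd hF a.ne_zero
    have h8 : δ * qChi F a = 1 := by rw [← ha, ← sq, qChi_sq a.ne_zero]
    rw [h8] at h7
    rw [h3.eq_bot h1.1, (factorization_of_cast_eq hF h6.1 h7).2, h6.2] at h5
    simpa using h5
  | succ m ih =>
    intro W δ P h hP hPW
    obtain ⟨W', P', h1, h2, h3, h5⟩ := h.step hF hs hB one_ne_zero (by omega) hP hPW
    have h7 := h.ncard_odd hF one_ne_zero
    rw [qChi_one, mul_one] at h1 h7
    have h8 := HasType.card_dvd_aux hF hs hB m ih W' P' h2 h3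
    rcases h.2.2.1 with rfl | rfl
    · have h6 := padicValInt_two_pow_add_one h4 (m + 1)
      refine h5.trans ((Nat.mul_dvd_mul_left _ (h8.1 h1)).trans ?_)
      rw [← pow_add, (factorization_of_cast_eq hF h6.1 h7).2, h6.2]
      exact pow_dvd_pow 2 (le_of_eq (by ring))
    · have h6 := padicValInt_two_pow_sub_one h4 qChi_mul_card_ne_one (Nat.succ_ne_zero m)
      refine h5.trans ((Nat.mul_dvd_mul_left _ (h8.2 h1)).trans ?_)
      rw [← pow_add, (factorization_of_cast_eq hF h6.1 h7).2, h6.2, factorization_factorial_succ,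
        ← qVal]
      exact pow_dvd_pow 2 (le_of_eq (by ring))

/-- bound for `2`-groups of isometries of a symplectic space -/
theorem card_dvd_of_alt (hF : Odd (Fintype.card F)) (halt : ∀ v, B v v = 0)
    (hB : ∀ (g : G) u v, B (g • u) (g • v) = B u v) (n : ℕ) :
    ∀ (W : Submodule F V) (P : Subgroup G), Nat.card W = Fintype.card F ^ (2 * n) →
      NondegOn B W → IsPGroup 2 P → FaithfulOn P W →
        Nat.card P ∣ 2 ^ ((Fintype.card F ^ 2 - 1).factorization 2 * n +
          n.factorial.factorization 2) := by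
  have hs : ∀ u v, B u v = -B v u := fun u v => by
    have := halt (u + v)
    simp only [map_add, LinearMap.add_apply, halt] at this
    linear_combination this
  induction n with
  | zero =>
    intro W P hW _ _ hPW
    rw [hPW.eq_bot hW]; simp
  | succ n ih =>
    intro W P hW h hP hPW
    have hX : ((W : Set V) \ {0}).ncard = Fintype.card F ^ (2 * (n + 1)) - 1 := by
      rw [Set.ncard_sdiff_singleton_of_mem W.zero_mem, ← hW]; rfl
    obtain ⟨v, ⟨hv, hv0⟩, h1⟩ := exists_card_dvd_of_invariant hP ((W : Set V) \ {0})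
      (Set.toFinite _) (Set.nonempty_of_ncard_ne_zero (by
        rw [hX]
        exact Nat.sub_ne_zero_of_lt (Nat.one_lt_pow (by omega) Fintype.one_lt_card)))
      fun g hg w hw => ⟨hPW.1 g hg w hw.1, fun h2 => hw.2 ((smul_eq_zero_iff_eq g).1 h2)⟩
    obtain ⟨u₀, hu₀, hvu₀⟩ : ∃ u ∈ W, B v u = 1 := by
      by_contra hc
      push Not at hc
      refine hv0 (h v hv fun u hu => ?_)
      by_contra h2
      exact hc ((B v u)⁻¹ • u) (W.smul_mem _ hu) (by rw [map_smul, smul_eq_mul, inv_mul_cancel₀ h2])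
    have hW1 := card_inf_ker_of_card_eq hu₀ (hvu₀ ▸ one_ne_zero) hW
    obtain ⟨u, ⟨hu, hvu⟩, hfu⟩ := exists_fixed_of_invariant (p := 2)
      (P := P ⊓ MulAction.stabilizer G v) hP.to_inf_left {w | w ∈ W ∧ B v w = 1}
      (by rw [ncard_fiber_eq hu₀ hvu₀, hW1]; exact (hF.pow).not_two_dvd_nat)
      fun g hg w hw => ⟨hPW.1 g hg.1 w hw.1, by
        rw [← show g • v = v from hg.2, hB]; exact hw.2⟩
    have huv : B u v ≠ 0 := by rw [hs, hvu]; exact neg_ne_zero.2 one_ne_zero
    have hvu' : B v u ≠ 0 := hvu ▸ one_ne_zero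
    have hv1 : v ∈ W ⊓ LinearMap.ker (B v) := ⟨hv, halt v⟩
    have h2 := ih (W ⊓ LinearMap.ker (B v) ⊓ LinearMap.ker (B u)) (P ⊓ MulAction.stabilizer G v)
      (card_inf_ker_of_card_eq hv1 huv hW1) (fun w hw hw' => h w hw.1.1 fun x hx => by
        obtain ⟨a, x', hx', rfl⟩ := exists_eq_smul_add hu hvu' hx
        obtain ⟨b, x'', hx'', rfl⟩ := exists_eq_smul_add hv1 huv hx'
        rw [map_add, map_add, map_smul, map_smul, hw' x'' hx'', hs w u, hs w v,
          show B u w = 0 from hw.2, show B v w = 0 from hw.1.2]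
        simp) hP.to_inf_left
      ((hPW.inf_ker hB inf_le_left hu hvu' hfu fun g hg => hg.2).inf_ker hB le_rfl hv1 huv
        (fun g hg => hg.2) hfu)
    refine h1.trans ((Nat.mul_dvd_mul_left _ h2).trans ?_)
    rw [← pow_add, hX, factorization_two_pow_sub_one_even hF Fintype.one_lt_card
      (Nat.succ_ne_zero n), factorization_factorial_succ]
    exact pow_dvd_pow 2 (le_of_eq (by ring))

end Bound

end Cfsg
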