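import Cfsg.Agent.Grp.GL2Sylow

/-! Counting vectors of given norm in finite quadratic spaces (odd characteristic), through Gauss
sums; diagonalisation with prescribed norms. -/

set_option autoImplicit false

namespace Cfsg

open scoped Pointwise Classical

variable {F : Type*} [Field F] {V : Type*} [AddCommGroup V] [Module F V]

/-- the form `B` is non-degenerate on `W` -/
def NondegOn (B : LinearMap.BilinForm F V) (W : Submodule F V) : Prop :=
  ∀ u ∈ W, (∀ v ∈ W, B u v = 0) → u = 0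

/-- splitting off a line from a subspace -/
noncomputable def lineEquiv {W : Submodule F V} {φ : V →ₗ[F] F} {u : V} (hu : u ∈ W)
    (h : φ u ≠ 0) : F × (W ⊓ LinearMap.ker φ : Submodule F V) ≃ W where
  toFun x := ⟨x.1 • u + x.2, W.add_mem (W.smul_mem _ hu) x.2.2.1⟩
  invFun w := (φ w / φ u, ⟨w - (φ w / φ u) • u, W.sub_mem w.2 (W.smul_mem _ hu), by
    rw [SetLike.mem_coe, LinearMap.mem_ker, map_sub, map_smul, smul_eq_mul,
      div_mul_cancel₀ _ h, sub_self]⟩)
  left_inv x := by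
    have h1 : φ x.2 = 0 := x.2.2.2
    have h2 : φ (x.1 • u + x.2) / φ u = x.1 := by
      rw [map_add, map_smul, h1, add_zero, smul_eq_mul, mul_div_cancel_right₀ _ h]
    refine Prod.ext h2 (Subtype.ext ?_)
    change x.1 • u + x.2 - (φ (x.1 • u + x.2) / φ u) • u = x.2
    rw [h2, add_sub_cancel_left]
  right_inv w := Subtype.ext (add_sub_cancel _ _)

theorem exists_eq_smul_add {W : Submodule F V} {φ : V →ₗ[F] F} {u : V} (hu : u ∈ W)
    (h : φ u ≠ 0) {w : V} (hw : w ∈ W) :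
    ∃ (t : F) (w' : V), w' ∈ W ⊓ LinearMap.ker φ ∧ w = t • u + w' := by
  obtain ⟨x, hx⟩ := (lineEquiv hu h).surjective ⟨w, hw⟩
  exact ⟨x.1, x.2, x.2.2, (congrArg Subtype.val hx).symm⟩

theorem card_eq_mul_card_inf_ker [Fintype F] {W : Submodule F V} {φ : V →ₗ[F] F} {u : V}
    (hu : u ∈ W) (h : φ u ≠ 0) :
    Nat.card W = Fintype.card F * Nat.card (W ⊓ LinearMap.ker φ : Submodule F V) := by
  rw [← Nat.card_congr (lineEquiv hu h), Nat.card_prod, Nat.card_eq_fintype_card]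

theorem card_inf_ker_of_card_eq [Fintype F] {W : Submodule F V} {φ : V →ₗ[F] F} {u : V}
    (hu : u ∈ W) (h : φ u ≠ 0) {n : ℕ} (hW : Nat.card W = Fintype.card F ^ (n + 1)) :
    Nat.card (W ⊓ LinearMap.ker φ : Submodule F V) = Fintype.card F ^ n := by
  rw [card_eq_mul_card_inf_ker hu h, pow_succ'] at hW
  exact Nat.eq_of_mul_eq_mul_left Fintype.card_pos hW

theorem ncard_fiber_eq {W : Submodule F V} {φ : V →ₗ[F] F} {u : V} (hu : u ∈ W) (h : φ u = 1) :
    {w | w ∈ W ∧ φ w = 1}.ncard = Nat.card (W ⊓ LinearMap.ker φ : Submodule F V) := by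
  rw [← Nat.card_coe_set_eq]
  refine Nat.card_congr ⟨fun w => ⟨w.1 - u, W.sub_mem w.2.1 hu, ?_⟩,
    fun w => ⟨w.1 + u, W.add_mem w.2.1 hu, ?_⟩, fun w => by simp, fun w => by simp⟩
  · rw [SetLike.mem_coe, LinearMap.mem_ker, map_sub, w.2.2, h, sub_self]
  · rw [map_add, show φ w.1 = 0 from w.2.2, h, zero_add]

theorem NondegOn.inf_ker {B : LinearMap.BilinForm F V} (hs : ∀ u v, B u v = B v u)
    {W : Submodule F V} (h : NondegOn B W) {v : V} (hv : v ∈ W) (hvv : B v v ≠ 0) :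
    NondegOn B (W ⊓ LinearMap.ker (B v)) := by
  intro u hu hu'
  refine h u hu.1 fun w hw => ?_
  obtain ⟨t, w', hw', rfl⟩ := exists_eq_smul_add hv hvv hw
  rw [map_add, map_smul, hu' w' hw', hs u v, show B v u = 0 from hu.2, smul_zero, add_zero]

theorem NondegOn.exists_ne_zero {B : LinearMap.BilinForm F V} (h2 : (2 : F) ≠ 0)
    (hs : ∀ u v, B u v = B v u) {W : Submodule F V} (h : NondegOn B W) (hW : W ≠ ⊥) :
    ∃ v ∈ W, B v v ≠ 0 := by
  by_contra hc
  push Not at hc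
  refine hW (eq_bot_iff.2 fun u hu => h u hu fun v hv => ?_)
  have h1 := hc _ (W.add_mem hu hv)
  simp only [map_add, LinearMap.add_apply, hc u hu, hc v hv, hs v u, zero_add, add_zero] at h1
  exact (mul_eq_zero.1 (show 2 * B u v = 0 by linear_combination h1)).resolve_left h2

variable [Fintype F]

/-- a fixed non-trivial additive character -/
noncomputable def qPsi (F : Type*) [Field F] [Fintype F] : AddChar F ℂ :=
  AddChar.FiniteField.primitiveChar_to_Complex F

/-- the quadratic character -/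
noncomputable def qChi (F : Type*) [Field F] [Fintype F] (a : F) : ℤ := quadraticChar F a

/-- the quadratic Gauss sum -/
noncomputable def qGauss (F : Type*) [Field F] [Fintype F] : ℂ :=
  gaussSum ((quadraticChar F).ringHomComp (Int.castRingHom ℂ)) (qPsi F)

theorem qChi_mul (a b : F) : qChi F (a * b) = qChi F a * qChi F b := map_mul _ a b

theorem qChi_one : qChi F 1 = 1 := map_one (quadraticChar F)

theorem qChi_zero : qChi F 0 = 0 := MulChar.map_zero (quadraticChar F)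

theorem qChi_sq {a : F} (ha : a ≠ 0) : qChi F a ^ 2 = 1 := quadraticChar_sq_one ha

theorem qChi_dichotomy {a : F} (ha : a ≠ 0) : qChi F a = 1 ∨ qChi F a = -1 :=
  quadraticChar_dichotomy ha

theorem exists_qChi_eq_neg_one (hF : Odd (Fintype.card F)) : ∃ a : Fˣ, qChi F a = -1 := by
  obtain ⟨a, ha⟩ := FiniteField.exists_nonsquare (ringChar_ne_two_of_odd hF)
  have h0 : a ≠ 0 := by rintro rfl; exact ha IsSquare.zero
  exact ⟨Units.mk0 a h0, quadraticChar_neg_one_iff_not_isSquare.2 ha⟩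

theorem four_dvd_qChi_mul_sub_one (hF : Odd (Fintype.card F)) :
    (4 : ℤ) ∣ qChi F (-1) * Fintype.card F - 1 := by
  rw [qChi, quadraticChar_neg_one (ringChar_ne_two_of_odd hF), ZMod.χ₄_nat_eq_if_mod_four]
  rw [Nat.odd_iff] at hF
  split_ifs <;> omega

theorem qGauss_sq (hF : Odd (Fintype.card F)) :
    qGauss F ^ 2 = (qChi F (-1) : ℂ) * Fintype.card F :=
  gaussSum_sq ((MulChar.ringHomComp_ne_one_iff (RingHom.injective_int _)).2
    (quadraticChar_ne_one (ringChar_ne_two_of_odd hF))) ((quadraticChar_isQuadratic F).comp _)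
    (AddChar.FiniteField.primitiveChar_to_Complex_isPrimitive F)

theorem qGauss_ne_zero (hF : Odd (Fintype.card F)) : qGauss F ≠ 0 := by
  intro h
  have h1 := qGauss_sq hF
  rw [h, zero_pow two_ne_zero, eq_comm, mul_eq_zero] at h1
  rcases h1 with h1 | h1
  · rcases qChi_dichotomy (neg_ne_zero.2 (one_ne_zero (α := F))) with h2 | h2 <;>
      simp [h2] at h1
  · exact Fintype.card_ne_zero (Nat.cast_eq_zero.1 h1)

theorem sum_qPsi_mul (b : F) :
    ∑ t : F, qPsi F (t * b) = if b = 0 then (Fintype.card F : ℂ) else 0 := by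
  rw [qPsi, AddChar.sum_mulShift b (AddChar.FiniteField.primitiveChar_to_Complex_isPrimitive F)]
  split_ifs <;> simp

theorem sum_qChi_mul_qPsi {a : F} (ha : a ≠ 0) :
    ∑ t : F, (qChi F t : ℂ) * qPsi F (a * t) = qChi F a * qGauss F := by
  have h := gaussSum_mulShift ((quadraticChar F).ringHomComp (Int.castRingHom ℂ)) (qPsi F)
    (Units.mk0 a ha)
  have h1 : ((qChi F a : ℤ) : ℂ) ^ 2 = 1 := by exact_mod_cast qChi_sq ha
  rw [qGauss, ← h, ← mul_assoc]
  change _ = (qChi F a : ℂ) * (qChi F a : ℂ) * ∑ t : F, (qChi F t : ℂ) * qPsi F (a * t)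
  rw [← sq, h1, one_mul]

theorem sum_qPsi_sq (hF : Odd (Fintype.card F)) {a : F} (ha : a ≠ 0) :
    ∑ x : F, qPsi F (a * x ^ 2) = qChi F a * qGauss F := by
  rw [← Finset.sum_fiberwise Finset.univ (fun x : F => x ^ 2), ← sum_qChi_mul_qPsi ha]
  have h0 := sum_qPsi_mul a
  rw [if_neg ha] at h0
  rw [← add_zero (∑ t : F, (qChi F t : ℂ) * qPsi F (a * t)), ← h0, ← Finset.sum_add_distrib]
  refine Finset.sum_congr rfl fun y _ => ?_
  rw [Finset.sum_congr rfl (g := fun _ => qPsi F (a * y)) fun x hx => by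
    rw [(Finset.mem_filter.1 hx).2], Finset.sum_const, nsmul_eq_mul]
  have h1 := quadraticChar_card_sqrts (ringChar_ne_two_of_odd hF) y
  rw [Set.toFinset_ofPred] at h1
  have h2 : (((Finset.univ.filter fun x : F => x ^ 2 = y).card : ℤ) : ℂ) =
      ((qChi F y + 1 : ℤ) : ℂ) := by rw [h1]; rfl
  push_cast at h2
  rw [h2, mul_comm y a]; ring

variable [Fintype V]

/-- the Gauss sum of a quadratic subspace -/
noncomputable def qGam (B : LinearMap.BilinForm F V) (W : Submodule F V) (t : F) : ℂ :=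
  ∑ w : W, qPsi F (t * B w w)

/-- `W` is a non-degenerate subspace of dimension `n` with discriminant class `δ` -/
def HasType (B : LinearMap.BilinForm F V) (W : Submodule F V) (n : ℕ) (δ : ℤ) : Prop :=
  Nat.card W = Fintype.card F ^ n ∧ NondegOn B W ∧ (δ = 1 ∨ δ = -1) ∧
    ∀ t : F, t ≠ 0 → qGam B W t = (qChi F t : ℂ) ^ n * δ * qGauss F ^ n

variable {B : LinearMap.BilinForm F V}

theorem qGam_eq (hF : Odd (Fintype.card F)) (hs : ∀ u v, B u v = B v u) {W : Submodule F V}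
    {v : V} (hv : v ∈ W) (hvv : B v v ≠ 0) {t : F} (ht : t ≠ 0) :
    qGam B W t = qChi F t * qChi F (B v v) * qGauss F * qGam B (W ⊓ LinearMap.ker (B v)) t := by
  have h := sum_qPsi_sq hF (mul_ne_zero ht hvv)
  rw [qChi_mul, Int.cast_mul] at h
  rw [← h, qGam, qGam, Finset.sum_mul_sum, ← (lineEquiv hv hvv).sum_comp, Fintype.sum_prod_type]
  refine Finset.sum_congr rfl fun x _ => Finset.sum_congr rfl fun w _ => ?_
  rw [← AddChar.map_add_eq_mul]
  congr 1
  change t * B (x • v + w) (x • v + w) = _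
  have h1 : B v w = 0 := w.2.2
  simp only [map_add, map_smul, LinearMap.add_apply, LinearMap.smul_apply, smul_eq_mul, h1,
    hs w v]
  ring

theorem exists_hasType (hF : Odd (Fintype.card F)) (hs : ∀ u v, B u v = B v u) (n : ℕ) :
    ∀ W : Submodule F V, Nat.card W = Fintype.card F ^ n → NondegOn B W →
      ∃ δ, HasType B W n δ := by
  induction n with
  | zero =>
    intro W hW h
    refine ⟨1, hW, h, Or.inl rfl, fun t _ => ?_⟩
    have : Subsingleton W := (Nat.card_eq_one_iff_unique.1 hW).1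
    rw [qGam, Fintype.sum_subsingleton _ (0 : W)]
    simp
  | succ n ih =>
    intro W hW h
    have hW0 : W ≠ ⊥ := by
      rintro rfl
      rw [Nat.card_unique] at hW
      exact (Nat.one_lt_pow (Nat.succ_ne_zero n) Fintype.one_lt_card).ne hW
    obtain ⟨v, hv, hvv⟩ := h.exists_ne_zero (two_ne_zero_of_odd_card hF) hs hW0
    obtain ⟨δ, -, -, h1, h2⟩ := ih _ (card_inf_ker_of_card_eq hv hvv hW) (h.inf_ker hs hv hvv)
    refine ⟨δ * qChi F (B v v), hW, h, ?_, fun t ht => ?_⟩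
    · rcases h1 with h1 | h1 <;> rcases qChi_dichotomy hvv with h3 | h3 <;> simp [h1, h3]
    · rw [qGam_eq hF hs hv hvv ht, h2 t ht]
      push_cast; ring

theorem HasType.inf_ker (hF : Odd (Fintype.card F)) (hs : ∀ u v, B u v = B v u)
    {W : Submodule F V} {n : ℕ} {δ : ℤ} (h : HasType B W (n + 1) δ) {v : V} (hv : v ∈ W)
    (hvv : B v v ≠ 0) : HasType B (W ⊓ LinearMap.ker (B v)) n (δ * qChi F (B v v)) := by
  refine ⟨card_inf_ker_of_card_eq hv hvv h.1, h.2.1.inf_ker hs hv hvv, ?_, fun t ht => ?_⟩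
  · rcases h.2.2.1 with h1 | h1 <;> rcases qChi_dichotomy hvv with h3 | h3 <;> simp [h1, h3]
  · have h1 := h.2.2.2 t ht
    rw [qGam_eq hF hs hv hvv ht] at h1
    have h2 : ((qChi F (B v v) : ℤ) : ℂ) ^ 2 = 1 := by exact_mod_cast qChi_sq hvv
    have h3 : ((qChi F t : ℤ) : ℂ) ≠ 0 := by
      rcases qChi_dichotomy ht with h3 | h3 <;> simp [h3]
    refine mul_left_cancel₀ (mul_ne_zero h3 (qGauss_ne_zero hF)) ?_
    push_cast
    linear_combination (qChi F (B v v) : ℂ) * h1 -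
      (qChi F t : ℂ) * qGauss F * qGam B (W ⊓ LinearMap.ker (B v)) t * h2

theorem card_mul_ncard_eq (W : Submodule F V) (a : F) :
    (Fintype.card F : ℂ) * {w | w ∈ W ∧ B w w = a}.ncard =
      Nat.card W + ∑ t ∈ Finset.univ.erase (0 : F), qPsi F (-a * t) * qGam B W t := by
  have h1 : ∑ t : F, qPsi F (-a * t) * qGam B W t =
      ∑ w : W, if B w w - a = 0 then (Fintype.card F : ℂ) else 0 := by
    simp only [qGam, Finset.mul_sum, ← AddChar.map_add_eq_mul]
    rw [Finset.sum_comm]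
    refine Finset.sum_congr rfl fun w _ => ?_
    rw [← sum_qPsi_mul]
    refine Finset.sum_congr rfl fun t _ => ?_
    congr 1; ring
  rw [← Finset.add_sum_erase _ _ (Finset.mem_univ (0 : F)), ← Finset.sum_filter, Finset.sum_const,
    nsmul_eq_mul] at h1
  have h2 : qPsi F (-a * 0) * qGam B W 0 = Nat.card W := by
    simp [qGam]
  rw [← h2, h1, mul_comm]
  congr 2
  rw [← Nat.card_coe_set_eq, ← Fintype.card_subtype, ← Nat.card_eq_fintype_card]
  exact Nat.card_congr ⟨fun w => ⟨⟨w.1, w.2.1⟩, sub_eq_zero.2 w.2.2⟩,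
    fun w => ⟨w.1.1, w.1.2, sub_eq_zero.1 w.2⟩, fun _ => rfl, fun _ => rfl⟩

theorem HasType.ncard_even (hF : Odd (Fintype.card F)) {W : Submodule F V} {m : ℕ} {δ : ℤ}
    (h : HasType B W (2 * m + 2) δ) {a : F} (ha : a ≠ 0) :
    ({w | w ∈ W ∧ B w w = a}.ncard : ℤ) = Fintype.card F ^ m * qChi F (-1) ^ (m + 1) *
      ((qChi F (-1) * Fintype.card F) ^ (m + 1) - δ) := by
  have h1 := card_mul_ncard_eq (B := B) W a
  have h2 : ∑ t ∈ Finset.univ.erase (0 : F), qPsi F (-a * t) = -1 := by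
    have h3 := sum_qPsi_mul (-a)
    rw [if_neg (neg_ne_zero.2 ha), ← Finset.add_sum_erase _ _ (Finset.mem_univ (0 : F))] at h3
    simp only [mul_zero, AddChar.map_zero_eq_one, mul_comm _ (-a)] at h3
    linear_combination h3
  rw [Finset.sum_congr rfl (g := fun t => qPsi F (-a * t) * (δ * qGauss F ^ (2 * m + 2)))
    fun t ht => by
      have ht' := Finset.ne_of_mem_erase ht
      have h3 : ((qChi F t : ℤ) : ℂ) ^ 2 = 1 := by exact_mod_cast qChi_sq ht'
      rw [h.2.2.2 t ht', show 2 * m + 2 = 2 * (m + 1) by ring, pow_mul, h3, one_pow, one_mul],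
    ← Finset.sum_mul, h2, h.1, show 2 * m + 2 = 2 * (m + 1) by ring, pow_mul (qGauss F),
    qGauss_sq hF] at h1
  have h3 : ((qChi F (-1) : ℤ) : ℂ) ^ (2 * (m + 1)) = 1 := by
    rw [pow_mul]
    have := qChi_sq (neg_ne_zero.2 (one_ne_zero (α := F)))
    have h4 : ((qChi F (-1) : ℤ) : ℂ) ^ 2 = 1 := by exact_mod_cast this
    rw [h4, one_pow]
  have hq : (Fintype.card F : ℂ) ≠ 0 := Nat.cast_ne_zero.2 Fintype.card_ne_zero
  apply Int.cast_injective (α := ℂ)
  refine mul_left_cancel₀ hq ?_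
  push_cast at h1 ⊢
  rw [h1]
  linear_combination -(Fintype.card F : ℂ) ^ (2 * (m + 1)) * h3

theorem HasType.ncard_odd (hF : Odd (Fintype.card F)) {W : Submodule F V} {m : ℕ} {δ : ℤ}
    (h : HasType B W (2 * m + 1) δ) {a : F} (ha : a ≠ 0) :
    ({w | w ∈ W ∧ B w w = a}.ncard : ℤ) = Fintype.card F ^ m * qChi F (-1) ^ m *
      ((qChi F (-1) * Fintype.card F) ^ m + δ * qChi F a) := by
  have h1 := card_mul_ncard_eq (B := B) W a
  have h2 : ∑ t ∈ Finset.univ.erase (0 : F), (qChi F t : ℂ) * qPsi F (-a * t) =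
      qChi F (-1) * qChi F a * qGauss F := by
    have h3 := sum_qChi_mul_qPsi (neg_ne_zero.2 ha)
    rw [← Finset.add_sum_erase _ _ (Finset.mem_univ (0 : F)), qChi_zero, ← neg_one_mul a,
      qChi_mul] at h3
    rw [← neg_one_mul a]
    push_cast at h3
    linear_combination h3
  rw [Finset.sum_congr rfl
    (g := fun t => (qChi F t : ℂ) * qPsi F (-a * t) * (δ * qGauss F ^ (2 * m + 1)))
    fun t ht => by
      have ht' := Finset.ne_of_mem_erase ht
      have h3 : ((qChi F t : ℤ) : ℂ) ^ 2 = 1 := by exact_mod_cast qChi_sq ht'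
      rw [h.2.2.2 t ht', pow_succ (qChi F t : ℂ), pow_mul, h3]
      ring,
    ← Finset.sum_mul, h2, h.1, pow_succ (qGauss F), pow_mul (qGauss F), qGauss_sq hF] at h1
  have h4 : ((qChi F (-1) : ℤ) : ℂ) ^ 2 = 1 := by
    exact_mod_cast qChi_sq (neg_ne_zero.2 (one_ne_zero (α := F)))
  have h3 : ((qChi F (-1) : ℤ) : ℂ) ^ (2 * m) = 1 := by rw [pow_mul, h4, one_pow]
  have h5 := qGauss_sq hF
  have hq : (Fintype.card F : ℂ) ≠ 0 := Nat.cast_ne_zero.2 Fintype.card_ne_zero
  apply Int.cast_injective (α := ℂ)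
  refine mul_left_cancel₀ hq ?_
  push_cast at h1 ⊢
  rw [h1]
  linear_combination -(Fintype.card F : ℂ) ^ (2 * m + 1) * h3 +
    (qChi F (-1) : ℂ) ^ (m + 1) * qChi F a * δ * (Fintype.card F : ℂ) ^ m * h5 +
    (qChi F (-1) : ℂ) ^ m * qChi F a * δ * (Fintype.card F : ℂ) ^ (m + 1) * h4

end Cfsg
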