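import Cfsg.Agent.Grp.Misc

/-! The transfer argument behind Tate's theorem: if `O^p(R) = R` for a normal subgroup `R` and
`Q = P ∩ R`, then central sections `Q / K` of `P / K` are direct factors modulo `K`. -/

set_option autoImplicit false

namespace Cfsg

open scoped Pointwise commutatorElement

universe u v

variable {G : Type u} [Group G] [Finite G] {p : ℕ} [Fact p.Prime]

/-- If `O^p(R) = R`, `Q = P ∩ R` and `[Q, P] ≤ K ≤ Q`, then there is a normal subgroup `L` of `P`
containing `P'` with `L ∩ Q ≤ K` and `x ^ n ∈ L` whenever `Q ^ n ≤ K`. -/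
theorem exists_ker_inf_le_of_pResidual_eq_top (P : Sylow p G) (R : Subgroup G) [R.Normal]
    (hR : pResidual p R = ⊤) (K : Subgroup (P : Subgroup G)) [K.Normal]
    (hKQ : K ≤ R.subgroupOf P) (h4 : ⁅R.subgroupOf P, (⊤ : Subgroup (P : Subgroup G))⁆ ≤ K) :
    ∃ L : Subgroup (P : Subgroup G), commutator (P : Subgroup G) ≤ L ∧ L ⊓ R.subgroupOf P ≤ K ∧
      ∀ n : ℕ, (∀ q ∈ R.subgroupOf P, q ^ n ∈ K) → ∀ x, x ^ n ∈ L := by
  let A : Subgroup ((P : Subgroup G) ⧸ K) := (R.subgroupOf P).map (QuotientGroup.mk' K)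
  have hA : IsPGroup p A := (P.isPGroup'.to_quotient K).to_subgroup _
  have hAc : ∀ a ∈ A, ∀ w, w * a = a * w := by
    rintro _ ⟨q, hq, rfl⟩ w
    obtain ⟨u, rfl⟩ := QuotientGroup.mk'_surjective K w
    rw [eq_comm, ← commutatorElement_eq_one_iff_mul_comm, ← map_commutatorElement]
    exact (QuotientGroup.eq_one_iff _).2
      (h4 (Subgroup.commutator_mem_commutator hq (Subgroup.mem_top u)))
  let _ : CommGroup A := ⟨fun a b => Subtype.ext (hAc b b.2 a)⟩
  let π : (P : Subgroup G) ⧸ K →* G ⧸ R := QuotientGroup.lift K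
    ((QuotientGroup.mk' R).comp (P : Subgroup G).subtype)
    fun x hx => (QuotientGroup.eq_one_iff _).2 (hKQ hx)
  have hπ : ∀ w, π w = 1 → w ∈ A := fun w hw => by
    obtain ⟨u, rfl⟩ := QuotientGroup.mk'_surjective K w
    exact ⟨u, (QuotientGroup.eq_one_iff (u : G)).1 hw, rfl⟩
  let E : Subgroup (G × ((P : Subgroup G) ⧸ K)) :=
    ((QuotientGroup.mk' R).comp (MonoidHom.fst _ _)).eqLocus (π.comp (MonoidHom.snd _ _))
  let f : E →* G := (MonoidHom.fst _ _).comp E.subtype
  let S : Subgroup E := (P : Subgroup G).comap f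
  let ι : (P : Subgroup G) →* E := (((P : Subgroup G).subtype).prod
    (QuotientGroup.mk' K)).codRestrict E fun _ => rfl
  have hS : ¬ p ∣ S.index := by
    rw [Subgroup.index_comap]
    exact fun hd => P.not_dvd_index (hd.trans (Subgroup.relIndex_dvd_index_of_le
      fun u hu => ⟨ι ⟨u, hu⟩, rfl⟩))
  have hmem : ∀ s : S, (s : E).1.2 * (QuotientGroup.mk' K ⟨(s : E).1.1, s.2⟩)⁻¹ ∈ A := fun s => by
    apply hπ
    rw [map_mul, map_inv, mul_inv_eq_one]
    exact (s : E).2.symm
  let φ : S →* A :=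
    { toFun := fun s => ⟨_, hmem s⟩
      map_one' := Subtype.ext (mul_inv_eq_one.2 rfl)
      map_mul' := fun s t => Subtype.ext (by
        have e := hAc _ (hmem t) (QuotientGroup.mk' K ⟨(s : E).1.1, s.2⟩)⁻¹
        change (s : E).1.2 * (t : E).1.2 * (QuotientGroup.mk' K
          ((⟨(s : E).1.1, s.2⟩ : (P : Subgroup G)) * ⟨(t : E).1.1, t.2⟩))⁻¹ =
          (s : E).1.2 * (QuotientGroup.mk' K ⟨(s : E).1.1, s.2⟩)⁻¹ *
            ((t : E).1.2 * (QuotientGroup.mk' K ⟨(t : E).1.1, t.2⟩)⁻¹)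
        rw [mul_assoc (s : E).1.2 _ (_ * _), e, map_mul, mul_inv_rev]
        simp only [mul_assoc]) }
  let V := MonoidHom.transfer φ
  let j : R →* E := (R.subtype.prod 1).codRestrict E fun n =>
    ((QuotientGroup.eq_one_iff _).2 n.2).trans (map_one π).symm
  have hj : ∀ n, V (j n) = 1 := fun n => by
    have h5 : pResidual p R ≤ (V.comp j).ker := pResidual_le
      (hA.of_injective _ (QuotientGroup.kerLift_injective _))
    exact h5 (hR.ge (Subgroup.mem_top n))
  refine ⟨(V.comp ι).ker, Abelianization.commutator_subset_ker _, ?_, fun n hn x => ?_⟩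
  · rintro q ⟨h6, hq⟩
    replace h6 : V (ι q) = 1 := h6
    let z : E := ⟨(1, QuotientGroup.mk' K q),
      (map_one (QuotientGroup.mk' R)).trans ((QuotientGroup.eq_one_iff (q : G)).2 hq).symm⟩
    have hz : ∀ e : E, e * z = z * e := fun e => Subtype.ext
      (Prod.ext ((mul_one _).trans (one_mul _).symm) (hAc _ ⟨q, hq, rfl⟩ _))
    have h7 : ι q = j ⟨q, hq⟩ * z := Subtype.ext (Prod.ext (mul_one _).symm (one_mul _).symm)
    rw [h7, map_mul, hj, one_mul, MonoidHom.transfer_eq_pow φ z fun k g _ => by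
      rw [mul_assoc, ← (show Commute g z from hz g).pow_right k, inv_mul_cancel_left]] at h6
    have h8 : φ ⟨z, one_mem (P : Subgroup G)⟩ ^ S.index = 1 := by rw [← map_pow]; exact h6
    have h9 : φ ⟨z, one_mem (P : Subgroup G)⟩ = 1 :=
      (hA.powEquiv' hS).injective (h8.trans (one_pow _).symm)
    exact (QuotientGroup.eq_one_iff q).1 (mul_inv_eq_one.1 (congrArg Subtype.val h9))
  · rw [MonoidHom.mem_ker, map_pow]
    obtain ⟨_, q, hq, rfl⟩ := (V.comp ι) x
    apply Subtype.ext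
    rw [Subgroup.coe_pow, ← map_pow]
    exact (QuotientGroup.eq_one_iff _).2 (hn q hq)

end Cfsg
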